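import Cfsg.Agent.Nodes.Coroot
import Cfsg.Agent.H720.TwFr

/-!
# S2187, non-toral `E`, `E₆` with the unmatched sign: the root lattice of `E₆` (helper82)

`dl` the diagram automorphism, `B` the form; `Rot w`: `w` of order dividing 3, commutes with `dl`, `⟨w b, b⟩ ≠ 1` for the roots
`b` fixed by `dl`.

* `Rot.exists_three` : `w ≠ 1`: there is a root `a`, `dl a ≠ a`, `a + w a + w w a = 0`;
* `Rot.orth` : such `w ^ i a`, `dl (w ^ j a)` are orthogonal;
* `Rot.eq_pow` : a commutative family of such `w` consists of the powers of one of them;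
* `reach` : every root `b`, `dl b ≠ b`, is up to sign `w ^ i a` or `- dl (w ^ i a)` or `w ^ i a - c`, `c` a root fixed by `dl`.
-/

set_option autoImplicit false
set_option linter.unusedSectionVars false

namespace Cfsg.Agent.H82.Mono

open CoxeterSystem Cfsg Cfsg.Lie Cfsg.Lie.ChevalleyDatum
open Cfsg.Agent.ChevalleyStructure Cfsg.Agent.ChevalleyStructure.CoxeterGeom
  Cfsg.Agent.ChevalleyStructure.CoxeterGeomTypes
open Cfsg.Agent.Tits.Roots Cfsg.Agent.Tits.Core Cfsg.Agent.Nodes.Coroot Cfsg.Agent.Nodes.RGDChev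
open Cfsg.Agent.H720.TwFr

/-- the form -/
def B (x y : Fin 6 → ℤ) : ℤ :=
  2 * (x 0 * y 0 + x 1 * y 1 + x 2 * y 2 + x 3 * y 3 + x 4 * y 4 + x 5 * y 5) - (x 0 * y 2 + x 2 * y 0) -
    (x 2 * y 3 + x 3 * y 2) - (x 3 * y 4 + x 4 * y 3) - (x 4 * y 5 + x 5 * y 4) - (x 1 * y 3 + x 3 * y 1)

/-- the roots -/
def R6 (x : Fin 6 → ℤ) : Prop := ∃ r < 72, vec chevE6 6 r = x

/-- the diagram automorphism -/
def dl (x : Fin 6 → ℤ) : Fin 6 → ℤ := ![x 5, x 1, x 4, x 3, x 2, x 0]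

/-- the roots fixed by the diagram automorphism -/
def fxl : List ℕ := [0, 1, 2, 6, 8, 11, 18, 20, 24, 25, 27, 32, 39, 44, 46, 47, 51, 53, 60, 63, 65, 69, 70, 71]

theorem dl_eq (x : Fin 6 → ℤ) : permE rho6 x = dl x := by
  funext i
  fin_cases i <;> rfl

theorem t_fix : ∀ i < 72, dl (vec chevE6 6 i) = vec chevE6 6 i → i ∈ fxl := by decide +kernel

theorem t_norm : ∀ i < 72, B (vec chevE6 6 i) (vec chevE6 6 i) = 2 ∧ dl (vec chevE6 6 i) ≠ -vec chevE6 6 i ∧
    (dl (vec chevE6 6 i) = vec chevE6 6 i ∨ B (vec chevE6 6 i) (dl (vec chevE6 6 i)) = 0) ∧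
    ∃ j < 72, vec chevE6 6 j = dl (vec chevE6 6 i) := by decide +kernel

theorem t_diff : ∀ i ∈ fxl, ∀ j ∈ fxl, B (vec chevE6 6 i) (vec chevE6 6 j) = 0 →
    ∃ k < 72, dl (vec chevE6 6 k) ≠ vec chevE6 6 k ∧
      vec chevE6 6 k + dl (vec chevE6 6 k) = vec chevE6 6 i - vec chevE6 6 j := by decide +kernel

theorem t_sum : ∀ k < 72, dl (vec chevE6 6 k) ≠ vec chevE6 6 k → ∃ i ∈ fxl, ∃ j ∈ fxl,
    vec chevE6 6 k + dl (vec chevE6 6 k) = vec chevE6 6 i - vec chevE6 6 j := by decide +kernel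

theorem t_conn : ∀ i ∈ fxl, ∀ j ∈ fxl, ∃ k ∈ fxl, B (vec chevE6 6 i) (vec chevE6 6 k) ≠ 0 ∧
    B (vec chevE6 6 k) (vec chevE6 6 j) ≠ 0 := by decide +kernel

theorem t_fxr : ∀ i ∈ fxl, i < 72 ∧ dl (vec chevE6 6 i) = vec chevE6 6 i := by decide +kernel

/-! ### the form -/

theorem B_comm (x y : Fin 6 → ℤ) : B x y = B y x := by unfold B; ring
theorem B_add (x y z : Fin 6 → ℤ) : B (x + y) z = B x z + B y z := by unfold B; simp only [Pi.add_apply]; ring
theorem B_neg (x z : Fin 6 → ℤ) : B (-x) z = -B x z := by unfold B; simp only [Pi.neg_apply]; ring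
theorem B_sub (x y z : Fin 6 → ℤ) : B (x - y) z = B x z - B y z := by unfold B; simp only [Pi.sub_apply]; ring
theorem B_add' (x y z : Fin 6 → ℤ) : B z (x + y) = B z x + B z y := by rw [B_comm, B_add, B_comm x, B_comm y]
theorem B_sub' (x y z : Fin 6 → ℤ) : B z (x - y) = B z x - B z y := by rw [B_comm, B_sub, B_comm x, B_comm y]
theorem B_neg' (x z : Fin 6 → ℤ) : B z (-x) = -B z x := by rw [B_comm, B_neg, B_comm x]
theorem B_zero' (z : Fin 6 → ℤ) : B z 0 = 0 := by unfold B; simp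

theorem B_dl (x y : Fin 6 → ℤ) : B (dl x) (dl y) = B x y := by
  unfold B dl; simp; ring

theorem dl_dl (x : Fin 6 → ℤ) : dl (dl x) = x := by
  funext i
  fin_cases i <;> rfl

theorem dl_add (x y : Fin 6 → ℤ) : dl (x + y) = dl x + dl y := by
  funext i
  fin_cases i <;> rfl

theorem dl_neg (x : Fin 6 → ℤ) : dl (-x) = -dl x := by
  funext i
  fin_cases i <;> rfl

theorem dl_sub (x y : Fin 6 → ℤ) : dl (x - y) = dl x - dl y := by
  funext i
  fin_cases i <;> rfl

theorem six_B (x : Fin 6 → ℤ) : 6 * B x x = 3 * (2 * x 0 - x 2) ^ 2 + 3 * (2 * x 5 - x 4) ^ 2 +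
    3 * (2 * x 1 - x 3) ^ 2 + (3 * x 2 - 2 * x 3) ^ 2 + (3 * x 4 - 2 * x 3) ^ 2 + x 3 ^ 2 := by
  unfold B; ring

theorem B_nonneg (x : Fin 6 → ℤ) : 0 ≤ B x x := by
  have h := six_B x
  nlinarith [sq_nonneg (2 * x 0 - x 2), sq_nonneg (2 * x 5 - x 4), sq_nonneg (2 * x 1 - x 3),
    sq_nonneg (3 * x 2 - 2 * x 3), sq_nonneg (3 * x 4 - 2 * x 3), sq_nonneg (x 3)]

theorem eq_zero_of_B {x : Fin 6 → ℤ} (h0 : B x x = 0) : x = 0 := by
  have h := six_B x
  rw [h0, mul_zero] at h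
  have h1 := sq_nonneg (2 * x 0 - x 2)
  have h2 := sq_nonneg (2 * x 5 - x 4)
  have h3 := sq_nonneg (2 * x 1 - x 3)
  have h4 := sq_nonneg (3 * x 2 - 2 * x 3)
  have h5 := sq_nonneg (3 * x 4 - 2 * x 3)
  have h6 := sq_nonneg (x 3)
  have e6 : x 3 = 0 := pow_eq_zero_iff two_ne_zero |>.1 (by linarith : x 3 ^ 2 = 0)
  have e5 : 3 * x 4 - 2 * x 3 = 0 := pow_eq_zero_iff two_ne_zero |>.1 (by linarith)
  have e4 : 3 * x 2 - 2 * x 3 = 0 := pow_eq_zero_iff two_ne_zero |>.1 (by linarith)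
  have e3 : 2 * x 1 - x 3 = 0 := pow_eq_zero_iff two_ne_zero |>.1 (by linarith)
  have e2 : 2 * x 5 - x 4 = 0 := pow_eq_zero_iff two_ne_zero |>.1 (by linarith)
  have e1 : 2 * x 0 - x 2 = 0 := pow_eq_zero_iff two_ne_zero |>.1 (by linarith)
  funext i
  fin_cases i
  · show x 0 = 0; omega
  · show x 1 = 0; omega
  · show x 2 = 0; omega
  · show x 3 = 0; omega
  · show x 4 = 0; omega
  · show x 5 = 0; omega

/-! ### roots -/

theorem R6.norm {a : Fin 6 → ℤ} (ha : R6 a) : B a a = 2 := by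
  obtain ⟨r, hr, rfl⟩ := ha; exact (t_norm r hr).1

theorem R6.dl {a : Fin 6 → ℤ} (ha : R6 a) : R6 (dl a) := by
  obtain ⟨r, hr, rfl⟩ := ha; exact (t_norm r hr).2.2.2

theorem R6.dl_ne {a : Fin 6 → ℤ} (ha : R6 a) : Mono.dl a ≠ -a := by
  obtain ⟨r, hr, rfl⟩ := ha; exact (t_norm r hr).2.1

theorem R6.dl_orth {a : Fin 6 → ℤ} (ha : R6 a) (h : Mono.dl a ≠ a) : B a (Mono.dl a) = 0 := by
  obtain ⟨r, hr, rfl⟩ := ha; exact (t_norm r hr).2.2.1.resolve_left h

theorem le_two {x y : Fin 6 → ℤ} (hx : B x x = 2) (hy : B y y = 2) : B x y ≤ 2 := by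
  have h := B_nonneg (x - y)
  rw [B_sub, B_sub', B_sub', hx, hy, B_comm y x] at h
  linarith

theorem ge_two {x y : Fin 6 → ℤ} (hx : B x x = 2) (hy : B y y = 2) : -2 ≤ B x y := by
  have h := B_nonneg (x + y)
  rw [B_add, B_add', B_add', hx, hy, B_comm y x] at h
  linarith

theorem eq_of_two {x y : Fin 6 → ℤ} (hx : B x x = 2) (hy : B y y = 2) (h : B x y = 2) : x = y := by
  have h1 : B (x - y) (x - y) = 0 := by
    rw [B_sub, B_sub', B_sub', hx, hy, B_comm y x, h]; norm_num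
  exact sub_eq_zero.1 (eq_zero_of_B h1)

theorem eq_neg_of {x y : Fin 6 → ℤ} (hx : B x x = 2) (hy : B y y = 2) (h : B x y = -2) : x = -y := by
  have h1 : B (x + y) (x + y) = 0 := by
    rw [B_add, B_add', B_add', hx, hy, B_comm y x, h]; norm_num
  exact eq_neg_of_add_eq_zero_left (eq_zero_of_B h1)

theorem four_of_anti {x : Fin 6 → ℤ} (h : dl x = -x) : B x x = 4 * (x 0 ^ 2 - x 0 * x 2 + x 2 ^ 2) := by
  have h0 := congrFun h 0
  have h1 := congrFun h 1
  have h2 := congrFun h 2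
  have h3 := congrFun h 3
  simp only [dl, Pi.neg_apply, Matrix.cons_val_zero, Matrix.cons_val_one, Matrix.cons_val] at h0 h1 h2 h3
  have e1 : x 1 = 0 := by omega
  have e3 : x 3 = 0 := by omega
  unfold B
  rw [h0, h2, e1, e3]; ring

/-! ### elements of order three commuting with the diagram automorphism -/

/-- `w` of order dividing three -/
structure Rot (w : (Fin 6 → ℤ) → (Fin 6 → ℤ)) : Prop where
  add : ∀ x y, w (x + y) = w x + w y
  iso : ∀ x y, B (w x) (w y) = B x y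
  cube : ∀ x, w (w (w x)) = x
  com : ∀ x, w (dl x) = dl (w x)
  root : ∀ x, R6 x → R6 (w x)
  np : ∀ b, R6 b → dl b = b → B (w b) b ≠ 1

variable {w : (Fin 6 → ℤ) → (Fin 6 → ℤ)}

theorem Rot.zero (h : Rot w) : w 0 = 0 := by
  have := h.add 0 0
  rw [add_zero] at this
  exact left_eq_add.1 this

theorem Rot.neg (h : Rot w) (x : Fin 6 → ℤ) : w (-x) = -w x := by
  have := h.add (-x) x
  rw [neg_add_cancel, h.zero] at this
  exact eq_neg_of_add_eq_zero_left this.symm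

theorem Rot.sub (h : Rot w) (x y : Fin 6 → ℤ) : w (x - y) = w x - w y := by
  rw [sub_eq_add_neg, h.add, h.neg, sub_eq_add_neg]

/-- the norm of `a + w a + w w a` -/
theorem Rot.norm_sum (h : Rot w) {a : Fin 6 → ℤ} (ha : B a a = 2) :
    B (a + w a + w (w a)) (a + w a + w (w a)) = 6 + 6 * B (w a) a := by
  have e1 : B (w (w a)) (w a) = B (w a) a := h.iso _ _
  have e2 : B (w (w a)) a = B (w a) a := by
    have := h.iso (w (w a)) a
    rw [h.cube, B_comm] at this
    exact this.symm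
  have e3 : B (w a) (w a) = 2 := by rw [h.iso, ha]
  have e4 : B (w (w a)) (w (w a)) = 2 := by rw [h.iso, e3]
  simp only [B_add, B_add']
  rw [B_comm a (w a), B_comm a (w (w a)), B_comm (w a) (w (w a)), ha, e1, e2, e3, e4]
  ring

/-- `⟨w a, a⟩ = -1` -/
theorem Rot.sum_zero (h : Rot w) {a : Fin 6 → ℤ} (ha : B a a = 2) (h1 : B (w a) a = -1) : a + w a + w (w a) = 0 := by
  apply eq_zero_of_B
  rw [h.norm_sum ha, h1]; norm_num

/-- the key step -/
theorem Rot.lift (h : Rot w) {a : Fin 6 → ℤ} (ha : R6 a) (hne : dl a ≠ a)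
    (hc : (a + dl a) + w (a + dl a) + w (w (a + dl a)) = 0) : B (w a) a = -1 := by
  have hwa : R6 (w a) := h.root a ha
  have hs : dl (a + w a + w (w a)) = -(a + w a + w (w a)) := by
    rw [dl_add, dl_add, ← h.com, ← h.com, ← h.com]
    rw [h.add, h.add] at hc
    have h1 : dl a + w (dl a) + w (w (dl a)) = (a + dl a + (w a + w (dl a)) + (w (w a) + w (w (dl a)))) -
      (a + w a + w (w a)) := by abel
    rw [h1, hc, zero_sub]
  have h4 := four_of_anti hs
  rw [h.norm_sum ha.norm] at h4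
  have hle := le_two hwa.norm ha.norm
  have hge := ge_two hwa.norm ha.norm
  set n := B (w a) a with hn
  have hn1 : n = -1 ∨ n = 1 := by omega
  rcases hn1 with h1 | h1
  · exact h1
  exfalso
  have h0 : B a (dl a) = 0 := ha.dl_orth hne
  have hcc : B (a + dl a) (a + dl a) = 4 := by
    rw [B_add, B_add', B_add', B_dl, ha.norm, h0, B_comm, h0]; norm_num
  have h2 : B (w (w (a + dl a))) (a + dl a) = B (w (a + dl a)) (a + dl a) := by
    have := h.iso (w (w (a + dl a))) (a + dl a)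
    rw [h.cube, B_comm] at this
    exact this.symm
  have h3 : 2 * B (w (a + dl a)) (a + dl a) = -4 := by
    have h5 : B (a + dl a + w (a + dl a) + w (w (a + dl a))) (a + dl a) = B 0 (a + dl a) := by rw [hc]
    rw [B_add (a + dl a + w (a + dl a)), B_add (a + dl a), h2, hcc, B_comm 0, B_zero'] at h5
    linarith
  have h5 : B (w (dl a)) (dl a) = n := by rw [h.com, B_dl]
  have h6 : B (w (dl a)) a = B (w a) (dl a) := by
    rw [h.com, ← B_dl, dl_dl]
  rw [h.add, B_add, B_add', B_add', h5, h6, ← hn, h1] at h3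
  have h7 : w a = -dl a := eq_neg_of hwa.norm ha.dl.norm (by linarith)
  have h8 : w (w a) = a := by rw [h7, h.neg, h.com, h7, dl_neg, neg_neg, dl_dl]
  have h9 : w a = a := by
    have := h.cube a
    rw [h8] at this
    exact this
  rw [h9] at h7
  exact ha.dl_ne (neg_eq_iff_eq_neg.1 h7.symm)

/-- `⟨w b, b⟩` for `b` fixed by `dl` -/
theorem Rot.cases (h : Rot w) {b : Fin 6 → ℤ} (hb : R6 b) (hd : dl b = b) :
    w b = b ∨ B (w b) b = 0 ∨ b + w b + w (w b) = 0 := by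
  have hwb : R6 (w b) := h.root b hb
  have hle := le_two hwb.norm hb.norm
  have hge := ge_two hwb.norm hb.norm
  have hnp := h.np b hb hd
  have h1 : B (w b) b ≠ -2 := by
    intro h2
    have h3 := eq_neg_of hwb.norm hb.norm h2
    have h4 := h.cube b
    rw [h3, h.neg, h3, neg_neg, h3] at h4
    have h5 : B (-b) b = -B b b := B_neg b b
    rw [h4, hb.norm] at h5
    omega
  have h2 : B (w b) b = 2 ∨ B (w b) b = 0 ∨ B (w b) b = -1 := by omega
  rcases h2 with h2 | h2 | h2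
  · exact Or.inl (eq_of_two hwb.norm hb.norm h2)
  · exact Or.inr (Or.inl h2)
  · exact Or.inr (Or.inr (h.sum_zero hb.norm h2))

theorem R6.ix {b : Fin 6 → ℤ} (hb : R6 b) (hd : Mono.dl b = b) : ∃ i ∈ fxl, vec chevE6 6 i = b := by
  obtain ⟨r, hr, rfl⟩ := hb
  exact ⟨r, t_fix r hr hd, rfl⟩

theorem R6.of_ix {i : ℕ} (hi : i ∈ fxl) : R6 (vec chevE6 6 i) ∧ Mono.dl (vec chevE6 6 i) = vec chevE6 6 i :=
  ⟨⟨i, (t_fxr i hi).1, rfl⟩, (t_fxr i hi).2⟩

/-- **a root of type `Ã₂`** -/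
theorem Rot.exists_three (h : Rot w) (hw : ∃ x, R6 x ∧ w x ≠ x) : ∃ a, R6 a ∧ dl a ≠ a ∧ B (w a) a = -1 := by
  by_cases hA : ∃ b, R6 b ∧ dl b = b ∧ B (w b) b = 0
  · obtain ⟨b, hb, hd, hb0⟩ := hA
    obtain ⟨i, hi, hib⟩ := hb.ix hd
    obtain ⟨j, hj, hjb⟩ := (h.root b hb).ix (by rw [← h.com, hd])
    obtain ⟨k, hk, h1, h2⟩ := t_diff i hi j hj (by rw [hib, hjb, B_comm, hb0])
    refine ⟨_, ⟨k, hk, rfl⟩, h1, h.lift ⟨k, hk, rfl⟩ h1 ?_⟩
    rw [h2, hib, hjb, h.sub, h.sub, h.cube]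
    abel
  push Not at hA
  have hB : ∀ b, R6 b → dl b = b → w b = b ∨ b + w b + w (w b) = 0 := by
    intro b hb hd
    rcases h.cases hb hd with h1 | h1 | h1
    · exact Or.inl h1
    · exact absurd h1 (hA b hb hd)
    · exact Or.inr h1
  -- fixed and moved roots are orthogonal
  have ho : ∀ b c, R6 b → dl b = b → R6 c → dl c = c → w b = b → c + w c + w (w c) = 0 → B b c = 0 := by
    intro b c hb hbd hc hcd h1 h2
    have h3 : B b (c + w c + w (w c)) = B b 0 := by rw [h2]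
    have h4 : B b (w c) = B b c := by
      have := h.iso b c
      rwa [h1] at this
    have h5 : B b (w (w c)) = B b c := by
      have := h.iso b (w c)
      rwa [h1, h4] at this
    rw [B_add', B_add', h4, h5, B_zero'] at h3
    omega
  by_cases hC : ∃ b, R6 b ∧ dl b = b ∧ w b = b
  · -- all roots fixed by `dl` are fixed
    exfalso
    obtain ⟨b, hb, hbd, hwb⟩ := hC
    have hall : ∀ c, R6 c → dl c = c → w c = c := by
      intro c hc hcd
      rcases hB c hc hcd with h1 | h1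
      · exact h1
      exfalso
      obtain ⟨i, hi, hib⟩ := hb.ix hbd
      obtain ⟨j, hj, hjc⟩ := hc.ix hcd
      obtain ⟨k, hk, h2, h3⟩ := t_conn i hi j hj
      obtain ⟨hkr, hkd⟩ := R6.of_ix hk
      rw [hib] at h2
      rw [hjc] at h3
      rcases hB _ hkr hkd with h4 | h4
      · exact h3 (ho _ _ hkr hkd hc hcd h4 h1)
      · exact h2 (ho _ _ hb hbd hkr hkd hwb h4)
    obtain ⟨x, hx, hwx⟩ := hw
    by_cases hxd : dl x = x
    · exact hwx (hall x hx hxd)
    obtain ⟨k, hk, rfl⟩ := id hx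
    obtain ⟨i, hi, j, hj, hij⟩ := t_sum k hk hxd
    set a := vec chevE6 6 k with ha
    have hwc : w (a + dl a) = a + dl a := by
      rw [hij, h.sub, hall _ (R6.of_ix hi).1 (R6.of_ix hi).2, hall _ (R6.of_ix hj).1 (R6.of_ix hj).2]
    have hwa : R6 (w a) := h.root a hx
    have h0 : B a (dl a) = 0 := hx.dl_orth hxd
    have h1 : dl (w a - a) = -(w a - a) := by
      rw [dl_sub, ← h.com]
      rw [h.add] at hwc
      have : w (dl a) = a + dl a - w a := by rw [← hwc]; abel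
      rw [this]; abel
    have h2 := four_of_anti h1
    have hle := le_two hwa.norm hx.norm
    have hge := ge_two hwa.norm hx.norm
    have h3 : B (w a - a) (w a - a) = 4 - 2 * B (w a) a := by
      rw [B_sub, B_sub', B_sub', hwa.norm, hx.norm, B_comm a (w a)]; ring
    have hcc : B (a + dl a) (a + dl a) = 4 := by
      rw [B_add, B_add', B_add', B_dl, hx.norm, h0, B_comm, h0]; norm_num
    have h5 : B (w (dl a)) (dl a) = B (w a) a := by rw [h.com, B_dl]
    have h6 : B (w (dl a)) a = B (w a) (dl a) := by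
      rw [h.com, ← B_dl, dl_dl]
    have h7 : 2 * B (w a) a + 2 * B (w a) (dl a) = 4 := by
      have h8 : B (w (a + dl a)) (a + dl a) = 4 := by rw [hwc, hcc]
      rw [h.add, B_add, B_add', B_add', h5, h6] at h8
      linarith
    have h8 := le_two hwa.norm hx.dl.norm
    rw [h3] at h2
    have h9 : B (w a) a ≠ 0 := by
      intro h10
      have h11 : w a = dl a := eq_of_two hwa.norm hx.dl.norm (by linarith)
      have h12 := h.cube a
      rw [h11, h.com, h11, dl_dl, h11] at h12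
      exact hxd h12
    have h10 : B (w a) a = 2 := by omega
    exact hwx (eq_of_two hwa.norm hx.norm h10)
  · push Not at hC
    have hall : ∀ c, R6 c → dl c = c → c + w c + w (w c) = 0 := fun c hc hcd =>
      (hB c hc hcd).resolve_left (hC c hc hcd)
    have h0 : dl (vec chevE6 6 3) ≠ vec chevE6 6 3 := by decide +kernel
    obtain ⟨i, hi, j, hj, hij⟩ := t_sum 3 (by norm_num) h0
    refine ⟨_, ⟨3, by norm_num, rfl⟩, h0, h.lift ⟨3, by norm_num, rfl⟩ h0 ?_⟩
    rw [hij, h.sub, h.sub]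
    have h1 := hall _ (R6.of_ix hi).1 (R6.of_ix hi).2
    have h2 := hall _ (R6.of_ix hj).1 (R6.of_ix hj).2
    calc vec chevE6 6 i - vec chevE6 6 j + (w (vec chevE6 6 i) - w (vec chevE6 6 j)) +
          (w (w (vec chevE6 6 i)) - w (w (vec chevE6 6 j))) =
          (vec chevE6 6 i + w (vec chevE6 6 i) + w (w (vec chevE6 6 i))) -
          (vec chevE6 6 j + w (vec chevE6 6 j) + w (w (vec chevE6 6 j))) := by abel
      _ = 0 := by rw [h1, h2, sub_zero]

/-- the vectors of the orbit of `a` and of the orbit of `dl a` are orthogonal -/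
theorem Rot.orth (h : Rot w) {a : Fin 6 → ℤ} (ha : R6 a) (hne : dl a ≠ a) (h1 : B (w a) a = -1) :
    B (w a) (dl a) = 0 ∧ B (w (w a)) (dl a) = 0 ∧ B a (dl (w a)) = 0 ∧ B a (dl (w (w a))) = 0 := by
  have h0 : B a (dl a) = 0 := ha.dl_orth hne
  have hs := h.sum_zero ha.norm h1
  have h2 : B (a + w a + w (w a)) (dl a) = B 0 (dl a) := by rw [hs]
  rw [B_add, B_add, h0, B_comm 0, B_zero'] at h2
  have h3 : B a (dl (w a)) = B (w a) (dl a) := by rw [← B_dl, dl_dl, B_comm]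
  have h4 : B (w (w a)) (dl a) = B (w a) (dl a) := by
    rw [← h3, ← h.iso, h.cube, h.com]
  have h5 : B a (dl (w (w a))) = B (w (w a)) (dl a) := by rw [← B_dl, dl_dl, B_comm]
  refine ⟨by omega, by omega, by omega, by omega⟩

/-! ### the anti-invariant part -/

theorem anti_eq {z : Fin 6 → ℤ} (h : dl z = -z) : z = ![z 0, 0, z 2, 0, -z 2, -z 0] := by
  have h0 := congrFun h 0
  have h1 := congrFun h 1
  have h2 := congrFun h 2
  have h3 := congrFun h 3
  simp only [dl, Pi.neg_apply, Matrix.cons_val_zero, Matrix.cons_val_one, Matrix.cons_val] at h0 h1 h2 h3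
  funext i
  fin_cases i
  · rfl
  · show z 1 = 0; omega
  · rfl
  · show z 3 = 0; omega
  · show z 4 = -z 2; omega
  · show z 5 = -z 0; omega

theorem anti_ext {z z' : Fin 6 → ℤ} (h : dl z = -z) (h' : dl z' = -z') (e0 : z 0 = z' 0) (e2 : z 2 = z' 2) : z = z' := by
  rw [anti_eq h, anti_eq h', e0, e2]

/-- the six vectors -/
def six : List (ℤ × ℤ) := [(1, 0), (-1, 0), (0, 1), (0, -1), (1, 1), (-1, -1)]

theorem mem_six {u v : ℤ} (h : u ^ 2 - u * v + v ^ 2 = 1) : (u, v) ∈ six := by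
  have hv1 : v ≤ 1 := by nlinarith [sq_nonneg (2 * u - v)]
  have hv2 : -1 ≤ v := by nlinarith [sq_nonneg (2 * u - v)]
  have hu1 : u ≤ 1 := by nlinarith [sq_nonneg (2 * v - u)]
  have hu2 : -1 ≤ u := by nlinarith [sq_nonneg (2 * v - u)]
  interval_cases u <;> interval_cases v <;> first | (exfalso; revert h; norm_num; done) | (simp [six])

theorem t_six : ∀ p ∈ six, ∀ q ∈ six, ∀ z ∈ six, (-p.1 - q.1, -p.2 - q.2) ∈ six →
    z = p ∨ z = (-p.1, -p.2) ∨ z = q ∨ z = (-q.1, -q.2) ∨ z = (-p.1 - q.1, -p.2 - q.2) ∨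
      z = (p.1 + q.1, p.2 + q.2) := by decide

theorem anti_six {z : Fin 6 → ℤ} (h : dl z = -z) (h4 : B z z = 4) : (z 0, z 2) ∈ six := by
  apply mem_six
  have := four_of_anti h
  omega

theorem anti_cases {d e z : Fin 6 → ℤ} (hd : dl d = -d) (he : dl e = -e) (hz : dl z = -z) (hd4 : B d d = 4)
    (he4 : B e e = 4) (hz4 : B z z = 4) (hde : B d e = -2) :
    z = d ∨ z = -d ∨ z = e ∨ z = -e ∨ z = -d - e ∨ z = d + e := by
  have h1 : dl (-d - e) = -(-d - e) := by rw [dl_sub, dl_neg, hd, he]; abel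
  have h2 : B (-d - e) (-d - e) = 4 := by
    rw [B_sub, B_sub', B_sub', B_neg, B_neg', B_neg', B_neg, hd4, he4, B_comm e d, hde]; norm_num
  have h3 := t_six _ (anti_six hd hd4) _ (anti_six he he4) _ (anti_six hz hz4) (anti_six h1 h2)
  have hnd : dl (-d) = -(-d) := by rw [dl_neg, hd]
  have hne : dl (-e) = -(-e) := by rw [dl_neg, he]
  have hs : dl (d + e) = -(d + e) := by rw [dl_add, hd, he]; abel
  simp only [Prod.mk.injEq] at h3
  rcases h3 with h3 | h3 | h3 | h3 | h3 | h3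
  · exact Or.inl (anti_ext hz hd h3.1 h3.2)
  · exact Or.inr (Or.inl (anti_ext hz hnd h3.1 h3.2))
  · exact Or.inr (Or.inr (Or.inl (anti_ext hz he h3.1 h3.2)))
  · exact Or.inr (Or.inr (Or.inr (Or.inl (anti_ext hz hne h3.1 h3.2))))
  · exact Or.inr (Or.inr (Or.inr (Or.inr (Or.inl (anti_ext hz h1 h3.1 h3.2)))))
  · exact Or.inr (Or.inr (Or.inr (Or.inr (Or.inr (anti_ext hz hs h3.1 h3.2)))))

theorem R6.anti {a : Fin 6 → ℤ} (ha : R6 a) (hne : Mono.dl a ≠ a) :
    Mono.dl (a - Mono.dl a) = -(a - Mono.dl a) ∧ B (a - Mono.dl a) (a - Mono.dl a) = 4 := by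
  constructor
  · rw [dl_sub, dl_dl]; abel
  · rw [B_sub, B_sub', B_sub', B_dl, ha.norm, B_comm (Mono.dl a) a, ha.dl_orth hne]; norm_num

/-- the anti-invariant parts of the orbit of `a` -/
theorem Rot.anti (h : Rot w) {a : Fin 6 → ℤ} (ha : R6 a) (hne : dl a ≠ a) (h1 : B (w a) a = -1) {b : Fin 6 → ℤ}
    (hb : dl b = -b) (hb4 : B b b = 4) : ∃ s : ℤ, (s = 1 ∨ s = -1) ∧
      (b = s • (a - dl a) ∨ b = s • w (a - dl a) ∨ b = s • w (w (a - dl a))) := by
  obtain ⟨h2, h3⟩ := ha.anti hne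
  have hne' : dl (w a) ≠ w a := by
    intro h4
    rw [← h.com] at h4
    have h5 := congrArg (fun x => w (w x)) h4
    simp only [h.cube] at h5
    exact hne h5
  have h4 : w (a - dl a) = w a - dl (w a) := by rw [h.sub, h.com]
  obtain ⟨h5, h6⟩ := (h.root a ha).anti hne'
  rw [← h4] at h5 h6
  obtain ⟨o1, o2, o3, o4⟩ := h.orth ha hne h1
  have h7 : B (a - dl a) (w (a - dl a)) = -2 := by
    rw [h4, B_sub, B_sub', B_sub', B_dl, o3, B_comm (dl a), o1, B_comm a, h1]; norm_num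
  have h8 : w (w (a - dl a)) = -(a - dl a) - w (a - dl a) := by
    have hs := h.sum_zero ha.norm h1
    have e1 : w (w a) = -a - w a := by rw [← sub_eq_zero, ← hs]; abel
    rw [h4, h.sub, h.com, e1, dl_sub, dl_neg]; abel
  rcases anti_cases h2 h5 hb h3 h6 hb4 h7 with h9 | h9 | h9 | h9 | h9 | h9
  · exact ⟨1, Or.inl rfl, Or.inl (by rw [one_smul, h9])⟩
  · exact ⟨-1, Or.inr rfl, Or.inl (by rw [neg_one_smul, h9])⟩
  · exact ⟨1, Or.inl rfl, Or.inr (Or.inl (by rw [one_smul, h9]))⟩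
  · exact ⟨-1, Or.inr rfl, Or.inr (Or.inl (by rw [neg_one_smul, h9]))⟩
  · exact ⟨1, Or.inl rfl, Or.inr (Or.inr (by rw [one_smul, h9, h8]))⟩
  · exact ⟨-1, Or.inr rfl, Or.inr (Or.inr (by rw [neg_one_smul, h9, h8]; abel))⟩

theorem Rot.fix_anti {v : (Fin 6 → ℤ) → (Fin 6 → ℤ)} (hv : Rot v) (hf : ∀ z, dl z = -z → B z z = 4 → v z = z)
    {x : Fin 6 → ℤ} (hx : R6 x) : v x = x := by
  by_contra hcon
  obtain ⟨a, ha, hne, h1⟩ := hv.exists_three ⟨x, hx, hcon⟩
  obtain ⟨h2, h3⟩ := ha.anti hne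
  have h4 := hf _ h2 h3
  have hs := hv.sum_zero ha.norm h1
  have e1 : v (v a) = -a - v a := by rw [← sub_eq_zero, ← hs]; abel
  have h5 : v (v (a - dl a)) = -(a - dl a) - v (a - dl a) := by
    rw [hv.sub, hv.sub, hv.com, hv.com, e1, dl_sub, dl_neg]; abel
  rw [h4, h4] at h5
  have h6 : B (a - dl a) (a - dl a) = -2 * B (a - dl a) (a - dl a) := by
    nth_rewrite 1 [h5]
    rw [B_sub, B_neg]; ring
  omega

/-- **commuting elements are powers of each other** -/
theorem Rot.eq_pow {v : (Fin 6 → ℤ) → (Fin 6 → ℤ)} (h : Rot w) {a : Fin 6 → ℤ} (ha : R6 a) (hne : dl a ≠ a)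
    (h1 : B (w a) a = -1) (hv : Rot v) (hvw : ∀ x, v (w x) = w (v x)) (hr1 : Rot fun x => v (w x))
    (hr2 : Rot fun x => v (w (w x))) :
    (∀ x, R6 x → v x = x) ∨ (∀ x, R6 x → v x = w x) ∨ ∀ x, R6 x → v x = w (w x) := by
  obtain ⟨h2, h3⟩ := ha.anti hne
  set d := a - dl a with hd
  have hvd : dl (v d) = -v d := by rw [← hv.com, h2, hv.neg]
  have hvd4 : B (v d) (v d) = 4 := by rw [hv.iso, h3]
  -- an element fixing `d` is trivial
  have key : ∀ u : (Fin 6 → ℤ) → (Fin 6 → ℤ), Rot u → (∀ x, u (w x) = w (u x)) → u d = d → ∀ x, R6 x → u x = x := by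
    intro u hu huw hud x hx
    refine hu.fix_anti (fun z hz hz4 => ?_) hx
    obtain ⟨s, hs, h4⟩ := h.anti ha hne h1 hz hz4
    rw [← hd] at h4
    have e1 : u (w d) = w d := by rw [huw, hud]
    have e2 : u (w (w d)) = w (w d) := by rw [huw, e1]
    have hsm : ∀ y, u y = y → u (s • y) = s • y := by
      intro y hy
      rcases hs with rfl | rfl
      · rw [one_smul, hy]
      · rw [neg_one_smul, hu.neg, hy]
    rcases h4 with rfl | rfl | rfl
    · exact hsm _ hud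
    · exact hsm _ e1
    · exact hsm _ e2
  have hd0 : d ≠ -d := by
    intro h4
    have h5 : B d d = -B d d := by
      nth_rewrite 1 [h4]
      rw [B_neg]
    omega
  obtain ⟨s, hs, h4⟩ := h.anti ha hne h1 hvd hvd4
  rw [← hd] at h4
  rcases hs with rfl | rfl
  · simp only [one_smul] at h4
    rcases h4 with h4 | h4 | h4
    · exact Or.inl fun x hx => key v hv hvw h4 x hx
    · refine Or.inr (Or.inl fun x hx => ?_)
      have h5 := key _ hr2 (fun x => by simp only [hvw]) (by simp only [hvw, h4, h.cube]) (w x) (h.root x hx)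
      simp only [h.cube] at h5
      exact h5
    · refine Or.inr (Or.inr fun x hx => ?_)
      have h5 := key _ hr1 (fun x => by simp only [hvw]) (by simp only [hvw, h4, h.cube]) (w (w x))
        (h.root _ (h.root x hx))
      simp only [h.cube] at h5
      exact h5
  · exfalso
    simp only [neg_one_smul] at h4
    apply hd0
    rcases h4 with h4 | h4 | h4
    · have h5 := hv.cube d
      rw [h4, hv.neg, h4, neg_neg, h4] at h5
      exact h5.symm
    · have h5 := hv.cube d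
      rw [h4, hv.neg, hvw, h4, h.neg, neg_neg, hvw, hvw, h4, h.neg, h.neg, h.cube] at h5
      exact h5.symm
    · have h5 := hv.cube d
      rw [h4, hv.neg, hvw, hvw, h4, h.neg, h.neg, neg_neg, h.cube, hvw, h4, h.neg, h.cube] at h5
      exact h5.symm

/-- **every root of the other kind** -/
theorem Rot.reach (h : Rot w) {a : Fin 6 → ℤ} (ha : R6 a) (hne : dl a ≠ a) (h1 : B (w a) a = -1) {b : Fin 6 → ℤ}
    (hb : R6 b) (hbne : dl b ≠ b) : ∃ x, (x = a ∨ x = w a ∨ x = w (w a)) ∧ ∃ b', (b' = b ∨ b' = -b) ∧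
      (b' = x ∨ b' = -dl x ∨ (dl (x - b') = x - b' ∧ B b' x = 1)) := by
  obtain ⟨h2, h3⟩ := hb.anti hbne
  obtain ⟨s, hs, h4⟩ := h.anti ha hne h1 h2 h3
  have hR : ∀ x, (x = a ∨ x = w a ∨ x = w (w a)) → R6 x := by
    rintro x (rfl | rfl | rfl)
    · exact ha
    · exact h.root _ ha
    · exact h.root _ (h.root _ ha)
  obtain ⟨x, hx, h5⟩ : ∃ x, (x = a ∨ x = w a ∨ x = w (w a)) ∧ b - dl b = s • (x - dl x) := by
    rcases h4 with h4 | h4 | h4
    · exact ⟨a, Or.inl rfl, h4⟩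
    · exact ⟨w a, Or.inr (Or.inl rfl), by rw [h4, h.sub, h.com]⟩
    · exact ⟨w (w a), Or.inr (Or.inr rfl), by rw [h4, h.sub, h.sub, h.com, h.com]⟩
  obtain ⟨b', hb', h6⟩ : ∃ b', (b' = b ∨ b' = -b) ∧ b' - dl b' = x - dl x := by
    rcases hs with rfl | rfl
    · exact ⟨b, Or.inl rfl, by rw [h5, one_smul]⟩
    · refine ⟨-b, Or.inr rfl, ?_⟩
      rw [dl_neg]
      have : -b - -dl b = -(b - dl b) := by abel
      rw [this, h5, neg_one_smul, neg_neg]
  refine ⟨x, hx, b', hb', ?_⟩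
  have hxR := hR x hx
  have hb2 : B b' b' = 2 := by
    rcases hb' with rfl | rfl
    · exact hb.norm
    · rw [B_neg, B_neg', neg_neg, hb.norm]
  have hbo : B b' (dl b') = 0 := by
    rcases hb' with rfl | rfl
    · exact hb.dl_orth hbne
    · rw [dl_neg, B_neg, B_neg', neg_neg, hb.dl_orth hbne]
  have hle := le_two hb2 hxR.norm
  have hxd : B (dl x) (dl x) = 2 := by rw [B_dl, hxR.norm]
  have hge := ge_two hb2 hxd
  have h7 : B (b' - dl b') (x - dl x) = 4 := by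
    rw [← h6, B_sub, B_sub', B_sub', B_dl, hb2, hbo, B_comm, hbo]; norm_num
  have h8 : B (dl b') x = B b' (dl x) := by rw [← B_dl, dl_dl]
  rw [B_sub, B_sub', B_sub', B_dl, h8] at h7
  have h9 : B b' x = 2 ∨ B b' x = 1 ∨ B b' x = 0 := by omega
  rcases h9 with h9 | h9 | h9
  · exact Or.inl (eq_of_two hb2 hxR.norm h9)
  · refine Or.inr (Or.inr ⟨?_, h9⟩)
    rw [dl_sub]
    have : dl x - dl b' = (x - b') - ((x - dl x) - (b' - dl b')) := by abel
    rw [this, h6, sub_self, sub_zero]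
  · exact Or.inr (Or.inl (eq_neg_of hb2 hxd (by omega)))

end Cfsg.Agent.H82.Mono
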