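import Cfsg.Agent.H496.Mono.Base
import Cfsg.Agent.OddHalf.LongSL.Chev

/-!
# S2187, X4: the reflections in the roots `c` with `γ c = ± c` (helper82)

`SL₂(k)`, `k` algebraically closed of characteristic `r ≠ 2`: the matrix `t ↦ (0, t; -t⁻¹, 0)` fixed by a Frobenius map is a
product of unipotent fixed elements.

* `Refl.exists_rep` : `γ c = ± c`, the `r`-elements of `⟨X c, X (-c)⟩` fixed by `τ` are in `H`: some `n ∈ H` fixed by `τ`
  represents the reflection in `c`;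
* `Refl.ins_rep`, `Refl.ins_refl` : conjugation of `InS`.
-/

set_option autoImplicit false
set_option linter.unusedSectionVars false

namespace Cfsg.Agent.H82.Mono.Refl

open CoxeterSystem Cfsg Cfsg.Lie Cfsg.Lie.ChevalleyDatum
open Cfsg.Agent.ChevalleyStructure Cfsg.Agent.ChevalleyStructure.Elts Cfsg.Agent.ChevalleyStructure.CoxeterGeom
  Cfsg.Agent.ChevalleyStructure.CoxeterGeomTypes Cfsg.Agent.ChevalleyStructure.NPerm
open Cfsg.Agent.Tits.Roots Cfsg.Agent.Tits.Core Cfsg.Agent.Nodes Cfsg.Agent.Nodes.Reps Cfsg.Agent.Nodes.BNOf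
  Cfsg.Agent.Nodes.SubComb Cfsg.Agent.Nodes.RGDChev Cfsg.Agent.Nodes.Bruhat Cfsg.Agent.Nodes.Coroot
open Cfsg.Agent.KFacts.RgdField Cfsg.Agent.KFacts.RgdChevCoord
open Cfsg.Agent.BpExc Cfsg.Agent.BpExc.TorCent Cfsg.Agent.BpExc.TorChev Cfsg.Agent.BpExc.Tow
  Cfsg.Agent.BpExc.TowChev Cfsg.Agent.BpExc.Fr Cfsg.Agent.BpExc.LangFr
open Cfsg.Agent.H469.Exc Cfsg.Agent.H316.U6 Cfsg.Agent.H818.Gen Cfsg.Agent.H818.Mono Cfsg.Agent.H496.Mono
open Cfsg.Agent.ChevalleyStructure.SL2Hom (up lo mem_closure_SL2)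
open Cfsg.Agent.OddHalf.LongSL.Chev (phi phi_up phi_lo phi_eq_one)

/-! ### `SL₂` -/

section SL

variable {k : Type} [Field k]

theorem det_eq (A : Matrix.SpecialLinearGroup (Fin 2) k) : A.1 0 0 * A.1 1 1 - A.1 0 1 * A.1 1 0 = 1 := by
  rw [← Matrix.det_fin_two]; exact A.2

/-- two homomorphisms of `SL₂` agreeing on the unitriangular elements -/
theorem ext2 {Y : Type*} [Group Y] {f g : Matrix.SpecialLinearGroup (Fin 2) k →* Y} (h1 : ∀ a, f (up a) = g (up a))
    (h2 : ∀ a, f (lo a) = g (lo a)) (A : Matrix.SpecialLinearGroup (Fin 2) k) : f A = g A := by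
  have h3 : Subgroup.closure (Set.range (up (F := k)) ∪ Set.range (lo (F := k))) ≤ f.eqLocus g := by
    rw [Subgroup.closure_le]
    rintro _ (⟨a, rfl⟩ | ⟨a, rfl⟩)
    · exact h1 a
    · exact h2 a
  exact h3 (mem_closure_SL2 A)

/-- the Frobenius map followed by the conjugation with `diag (c, 1)` -/
def fp (f : k →+* k) (c : k) (hc : c ≠ 0) :
    Matrix.SpecialLinearGroup (Fin 2) k →* Matrix.SpecialLinearGroup (Fin 2) k :=
  MonoidHom.mk' (fun A => ⟨!![f (A.1 0 0), c * f (A.1 0 1); c⁻¹ * f (A.1 1 0), f (A.1 1 1)], by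
    have h1 := congrArg f (det_eq A)
    rw [map_sub, map_mul, map_mul, map_one] at h1
    rw [Matrix.det_fin_two_of]
    refine Eq.trans ?_ h1
    field_simp⟩) (by
    intro A B
    apply Subtype.ext
    show !![f ((A * B).1 0 0), c * f ((A * B).1 0 1); c⁻¹ * f ((A * B).1 1 0), f ((A * B).1 1 1)] =
      !![f (A.1 0 0), c * f (A.1 0 1); c⁻¹ * f (A.1 1 0), f (A.1 1 1)] *
        !![f (B.1 0 0), c * f (B.1 0 1); c⁻¹ * f (B.1 1 0), f (B.1 1 1)]
    rw [Matrix.SpecialLinearGroup.coe_mul]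
    ext i j
    fin_cases i <;> fin_cases j <;>
      simp [Matrix.mul_apply, Fin.sum_univ_two] <;> field_simp)

/-- the Frobenius map followed by the conjugation with an antidiagonal matrix -/
def fn (f : k →+* k) (c : k) (hc : c ≠ 0) :
    Matrix.SpecialLinearGroup (Fin 2) k →* Matrix.SpecialLinearGroup (Fin 2) k :=
  MonoidHom.mk' (fun A => ⟨!![f (A.1 1 1), c⁻¹ * f (A.1 1 0); c * f (A.1 0 1), f (A.1 0 0)], by
    have h1 := congrArg f (det_eq A)
    rw [map_sub, map_mul, map_mul, map_one] at h1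
    rw [Matrix.det_fin_two_of]
    refine Eq.trans ?_ h1
    field_simp⟩) (by
    intro A B
    apply Subtype.ext
    show !![f ((A * B).1 1 1), c⁻¹ * f ((A * B).1 1 0); c * f ((A * B).1 0 1), f ((A * B).1 0 0)] =
      !![f (A.1 1 1), c⁻¹ * f (A.1 1 0); c * f (A.1 0 1), f (A.1 0 0)] *
        !![f (B.1 1 1), c⁻¹ * f (B.1 1 0); c * f (B.1 0 1), f (B.1 0 0)]
    rw [Matrix.SpecialLinearGroup.coe_mul]
    ext i j
    fin_cases i <;> fin_cases j <;>
      simp [Matrix.mul_apply, Fin.sum_univ_two] <;> field_simp <;> ring)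

theorem fp_apply (f : k →+* k) (c : k) (hc : c ≠ 0) (A : Matrix.SpecialLinearGroup (Fin 2) k) :
    (fp f c hc A).1 = !![f (A.1 0 0), c * f (A.1 0 1); c⁻¹ * f (A.1 1 0), f (A.1 1 1)] := rfl

theorem fn_apply (f : k →+* k) (c : k) (hc : c ≠ 0) (A : Matrix.SpecialLinearGroup (Fin 2) k) :
    (fn f c hc A).1 = !![f (A.1 1 1), c⁻¹ * f (A.1 1 0); c * f (A.1 0 1), f (A.1 0 0)] := rfl

theorem coe_up (a : k) : (up a).1 = !![1, a; 0, 1] := rfl

theorem coe_lo (a : k) : (lo a).1 = !![1, 0; a, 1] := rfl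

theorem fp_up (f : k →+* k) (c : k) (hc : c ≠ 0) (a : k) : fp f c hc (up a) = up (c * f a) := by
  apply Subtype.ext
  rw [fp_apply, coe_up, coe_up]
  simp

theorem fp_lo (f : k →+* k) (c : k) (hc : c ≠ 0) (a : k) : fp f c hc (lo a) = lo (c⁻¹ * f a) := by
  apply Subtype.ext
  rw [fp_apply, coe_lo, coe_lo]
  simp

theorem fn_up (f : k →+* k) (c : k) (hc : c ≠ 0) (a : k) : fn f c hc (up a) = lo (c * f a) := by
  apply Subtype.ext
  rw [fn_apply, coe_up, coe_lo]
  simp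

theorem fn_lo (f : k →+* k) (c : k) (hc : c ≠ 0) (a : k) : fn f c hc (lo a) = up (c⁻¹ * f a) := by
  apply Subtype.ext
  rw [fn_apply, coe_up, coe_lo]
  simp

theorem pow_tr (A : Matrix.SpecialLinearGroup (Fin 2) k) (h : A.1 0 0 + A.1 1 1 = 2) (m : ℕ) :
    (A ^ m).1 = !![1 + m * (A.1 0 0 - 1), m * A.1 0 1; m * A.1 1 0, 1 + m * (A.1 1 1 - 1)] := by
  have h1 := det_eq A
  have h2 : A.1 1 1 = 2 - A.1 0 0 := by linear_combination h
  induction m with
  | zero => rw [pow_zero, Matrix.SpecialLinearGroup.coe_one, Matrix.one_fin_two]; simp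
  | succ m ih =>
    rw [pow_succ, Matrix.SpecialLinearGroup.coe_mul, ih]
    ext i j
    fin_cases i <;> fin_cases j <;> simp [Matrix.mul_apply, Fin.sum_univ_two]
    · rw [h2] at h1; linear_combination -(m : k) * h1
    · rw [h2]; ring
    · rw [h2]; ring
    · rw [h2] at h1 ⊢; linear_combination -(m : k) * h1

theorem pow_char (r : ℕ) [CharP k r] (A : Matrix.SpecialLinearGroup (Fin 2) k) (h : A.1 0 0 + A.1 1 1 = 2) :
    A ^ r = 1 := by
  apply Subtype.ext
  rw [pow_tr A h, Matrix.SpecialLinearGroup.coe_one, Matrix.one_fin_two, CharP.cast_eq_zero]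
  simp

/-- the monomial matrices -/
def nn (t : k) : Matrix.SpecialLinearGroup (Fin 2) k := up t * lo (-t⁻¹) * up t

theorem coe_nn {t : k} (ht : t ≠ 0) : (nn t).1 = !![0, t; -t⁻¹, 0] := by
  show !![(1 : k), t; 0, 1] * !![1, 0; -t⁻¹, 1] * !![1, t; 0, 1] = _
  ext i j
  fin_cases i <;> fin_cases j <;> simp [Matrix.mul_apply, Fin.sum_univ_two, ht]

variable [IsAlgClosed k] {f : k →+* k} {q : ℕ}

/-- **The matrix `nn t`, split case.** -/
theorem exists_fp (hf : ∀ x, f x = x ^ q) (hq : 1 < q) {c : k} (hc : c ≠ 0) :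
    ∃ t : k, t ≠ 0 ∧ fp f c hc (up t) = up t ∧ fp f c hc (lo (-t⁻¹)) = lo (-t⁻¹) := by
  obtain ⟨t, ht⟩ := IsAlgClosed.exists_pow_nat_eq c⁻¹ (n := q - 1) (by omega)
  have ht0 : t ≠ 0 := by
    rintro rfl
    rw [zero_pow (by omega)] at ht
    exact inv_ne_zero hc ht.symm
  have h1 : c * f t = t := by
    have h2 : t ^ q = t ^ (q - 1) * t := by rw [← pow_succ]; congr 1; omega
    rw [hf, h2, ht]
    field_simp
  refine ⟨t, ht0, by rw [fp_up, h1], ?_⟩
  rw [fp_lo, map_neg, map_inv₀]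
  congr 1
  have h3 : f t = c⁻¹ * t := by rw [← h1]; field_simp; rw [h1]
  rw [h3]
  field_simp

/-- `x² + y² = 1`, `f x = -x`, `f y = -y` -/
theorem exists_xy (h2 : (2 : k) ≠ 0) (hf : ∀ x, f x = x ^ q) (hq : 1 < q) :
    ∃ x y : k, f x = -x ∧ f y = -y ∧ x ^ 2 + y ^ 2 = 1 := by
  obtain ⟨i, hi⟩ := IsAlgClosed.exists_pow_nat_eq (-1 : k) (n := 2) (by norm_num)
  have hi0 : i ≠ 0 := by
    rintro rfl
    rw [zero_pow two_ne_zero] at hi
    exact neg_ne_zero.2 one_ne_zero hi.symm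
  have h3 : f i = i ∨ f i = -i := by
    have h4 : f i ^ 2 = -1 := by rw [← map_pow, hi, map_neg, map_one]
    have h5 : (f i - i) * (f i + i) = 0 := by linear_combination h4 - hi
    rcases mul_eq_zero.1 h5 with h6 | h6
    · left; exact sub_eq_zero.1 h6
    · right; exact eq_neg_of_add_eq_zero_left h6
  have hf2 : f 2 = 2 := map_ofNat f 2
  rcases h3 with h3 | h3
  · obtain ⟨z, hz⟩ := IsAlgClosed.exists_pow_nat_eq (-1 : k) (n := q - 1) (by omega)
    have hz0 : z ≠ 0 := by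
      rintro rfl
      rw [zero_pow (by omega)] at hz
      exact neg_ne_zero.2 one_ne_zero hz.symm
    have h4 : f z = -z := by
      have h2 : z ^ q = z ^ (q - 1) * z := by rw [← pow_succ]; congr 1; omega
      rw [hf, h2, hz]; ring
    refine ⟨(z + z⁻¹) / 2, (z - z⁻¹) / (2 * i), ?_, ?_, ?_⟩
    · rw [map_div₀, map_add, map_inv₀, h4, hf2]; field_simp; ring
    · rw [map_div₀, map_sub, map_inv₀, map_mul, h4, hf2, h3]; field_simp; ring
    · field_simp
      linear_combination ((z ^ 2 + 1) ^ 2 - 4 * z ^ 2) * hi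
  · obtain ⟨z, hz⟩ := IsAlgClosed.exists_pow_nat_eq (-1 : k) (n := q + 1) (by omega)
    have hz0 : z ≠ 0 := by
      rintro rfl
      rw [zero_pow (by omega)] at hz
      exact neg_ne_zero.2 one_ne_zero hz.symm
    have h4 : f z = -z⁻¹ := by
      rw [hf]
      rw [pow_succ] at hz
      field_simp
      linear_combination hz
    refine ⟨(z + z⁻¹) / 2, (z - z⁻¹) / (2 * i), ?_, ?_, ?_⟩
    · rw [map_div₀, map_add, map_inv₀, h4, hf2]; field_simp; ring
    · rw [map_div₀, map_sub, map_inv₀, map_mul, h4, hf2, h3]; field_simp; ring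
    · field_simp
      linear_combination ((z ^ 2 + 1) ^ 2 - 4 * z ^ 2) * hi

/-- **The matrix `nn t`, nonsplit case.** -/
theorem exists_fn (h2 : (2 : k) ≠ 0) (hf : ∀ x, f x = x ^ q) (hq : 1 < q) {c : k} (hc : c ≠ 0) :
    ∃ t : k, t ≠ 0 ∧ ∃ u v : Matrix.SpecialLinearGroup (Fin 2) k, fn f c hc u = u ∧ fn f c hc v = v ∧
      u.1 0 0 + u.1 1 1 = 2 ∧ v.1 0 0 + v.1 1 1 = 2 ∧ u * v = nn t := by
  obtain ⟨t, ht⟩ := IsAlgClosed.exists_pow_nat_eq (-c⁻¹) (n := q + 1) (by omega)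
  have ht0 : t ≠ 0 := by
    rintro rfl
    rw [zero_pow (by omega)] at ht
    exact neg_ne_zero.2 (inv_ne_zero hc) ht.symm
  have hft : f t = -(c * t)⁻¹ := by
    rw [hf]
    rw [pow_succ] at ht
    have : t ^ q * t = -c⁻¹ := ht
    rw [mul_inv, ← neg_mul, ← this]
    field_simp
  obtain ⟨x, y, hx, hy, hxy⟩ := exists_xy h2 hf hq
  let u : Matrix.SpecialLinearGroup (Fin 2) k := ⟨!![1 + x, (1 + y) * t; -((1 - y) * t⁻¹), 1 - x], by
    rw [Matrix.det_fin_two_of]
    field_simp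
    linear_combination -hxy⟩
  let v : Matrix.SpecialLinearGroup (Fin 2) k := ⟨!![1 + y, (1 - x) * t; -((1 + x) * t⁻¹), 1 - y], by
    rw [Matrix.det_fin_two_of]
    field_simp
    linear_combination -hxy⟩
  refine ⟨t, ht0, u, v, ?_, ?_, ?_, ?_, ?_⟩
  · apply Subtype.ext
    rw [fn_apply]
    show !![f (1 - x), c⁻¹ * f (-((1 - y) * t⁻¹)); c * f ((1 + y) * t), f (1 + x)] =
      !![1 + x, (1 + y) * t; -((1 - y) * t⁻¹), 1 - x]
    rw [map_sub, map_add, map_one, hx, map_neg, map_mul, map_sub, map_one, hy, map_inv₀, hft, map_mul, map_add,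
      map_one, hy, hft]
    congr 1
    ext i j
    fin_cases i <;> fin_cases j <;> simp <;> field_simp <;> try ring
  · apply Subtype.ext
    rw [fn_apply]
    show !![f (1 - y), c⁻¹ * f (-((1 + x) * t⁻¹)); c * f ((1 - x) * t), f (1 + y)] =
      !![1 + y, (1 - x) * t; -((1 + x) * t⁻¹), 1 - y]
    rw [map_sub, map_add, map_one, hy, map_neg, map_mul, map_add, map_one, hx, map_inv₀, hft, map_mul, map_sub,
      map_one, hx, hft]
    congr 1
    ext i j
    fin_cases i <;> fin_cases j <;> simp <;> field_simp <;> try ring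
  · show (1 + x) + (1 - x) = 2
    ring
  · show (1 + y) + (1 - y) = 2
    ring
  · apply Subtype.ext
    rw [coe_nn ht0]
    show !![1 + x, (1 + y) * t; -((1 - y) * t⁻¹), 1 - x] * !![1 + y, (1 - x) * t; -((1 + x) * t⁻¹), 1 - y] = _
    ext i j
    fin_cases i <;> fin_cases j <;> simp [Matrix.mul_apply, Fin.sum_univ_two] <;> field_simp
    · ring
    · linear_combination -hxy
    · linear_combination hxy
    · ring

end SL

/-! ### the group -/

section Y

variable {D : ChevalleyDatum} {l : ℕ} {M : CoxeterMatrix (Fin l)} (hp : IsType D l M) (r : ℕ) [Fact r.Prime]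

theorem phi_up' (i : Fin l) (a : KK r) : phi hp (KK r) i (up a) = xc hp (sr i) a := by
  apply Subtype.ext
  rw [phi_up]
  have h1 := coe_xc (K := KK r) hp (simple_lt hp.inList (lt_rank hp i)) a
  rw [vec_simple hp] at h1
  exact h1.symm

theorem phi_lo' (i : Fin l) (a : KK r) : phi hp (KK r) i (lo a) = xc hp (-sr i) a := by
  apply Subtype.ext
  rw [phi_lo]
  have h0 := simple_lt hp.inList (lt_rank hp i)
  have h1 := coe_xc (K := KK r) hp (neg_lt hp.inList h0) a
  rw [vec_neg hp h0, vec_simple hp] at h1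
  exact h1.symm

theorem phi_ker {i : Fin l} {g : Matrix.SpecialLinearGroup (Fin 2) (KK r)} (hg : phi hp (KK r) i g = 1) :
    g = 1 ∨ g = -1 :=
  phi_eq_one (SL2All.good_of_mem D hp.inList (D.simple i) (simple_lt hp.inList (lt_rank hp i)))
    (congrArg Subtype.val hg)

theorem phi_mem (i : Fin l) (g : Matrix.SpecialLinearGroup (Fin 2) (KK r)) :
    phi hp (KK r) i g ∈ RGD.Sup (XX D l (KK r)) {sr i, -sr i} := by
  have hs := simple_lt hp.inList (lt_rank hp i)
  have h1 : g ∈ (RGD.Sup (XX D l (KK r)) {sr i, -sr i}).comap (phi hp (KK r) i) := by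
    refine (Subgroup.closure_le _).2 ?_ (mem_closure_SL2 g)
    rintro x (⟨t, rfl⟩ | ⟨t, rfl⟩)
    · show phi hp (KK r) i (up t) ∈ RGD.Sup (XX D l (KK r)) {sr i, -sr i}
      rw [phi_up']
      refine RGD.le_Sup (S := {sr i, -sr i}) (Set.mem_insert _ _) ?_
      rw [← vec_simple hp]
      exact (HX.mem_XX_xc hp hs).2 ⟨t, rfl⟩
    · show phi hp (KK r) i (lo t) ∈ RGD.Sup (XX D l (KK r)) {sr i, -sr i}
      rw [phi_lo']
      refine RGD.le_Sup (S := {sr i, -sr i}) (Set.mem_insert_of_mem _ rfl) ?_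
      rw [← vec_simple hp, ← vec_neg hp hs]
      exact (HX.mem_XX_xc hp (neg_lt hp.inList hs)).2 ⟨t, rfl⟩
  exact h1

theorem nr_nn (i : Fin l) {t : KK r} (ht : t ≠ 0) :
    NR hp r (M.toCoxeterSystem.simple i) (phi hp (KK r) i (nn t)) := by
  have h1 : phi hp (KK r) i (nn t) = hc hp i t * nc hp (KK r) i := by
    apply Subtype.ext
    show ((phi hp (KK r) i (up t * lo (-t⁻¹) * up t) : ↥(D.group (KK r))) : GL D.Idx (KK r)) =
      hG hp.inList (D.simple i) t * nG hp.inList (D.simple i) 1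
    rw [map_mul, map_mul, Subgroup.coe_mul, Subgroup.coe_mul, phi_up, phi_lo, hG_def,
      mul_assoc (nG hp.inList (D.simple i) t)]
    have h1 : nG hp.inList (D.simple i) (-1 : KK r) * nG hp.inList (D.simple i) 1 = 1 := by
      have e1 : (-(-1 : KK r)⁻¹) = 1 := by rw [inv_neg_one, _root_.neg_neg]
      have e2 : (-(1 : KK r)⁻¹) = -1 := by rw [inv_one]
      rw [nG_def, nG_def, e1, e2, ← xG_inv hp.inList (D.simple i) (1 : KK r),
        ← xG_inv hp.inList (D.neg (D.simple i)) (1 : KK r)]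
      group
    rw [h1, mul_one, nG_def, mul_assoc]
  rw [h1]
  have h2 := nr_mul (nr_of_T (hp := hp) (r := r) (hc_mem hp i ht))
    (rp_simple (cs := M.toCoxeterSystem) (tow (k := KK r) hp M.toCoxeterSystem (locFin r) r).nsys i)
  rwa [one_mul] at h2

theorem two_ne (hr2 : r ≠ 2) : (2 : KK r) ≠ 0 := by
  intro h
  have h1 : ((2 : ℕ) : KK r) = 0 := by exact_mod_cast h
  rw [CharP.cast_eq_zero_iff (KK r) r] at h1
  exact hr2 ((Nat.prime_dvd_prime_iff_eq Fact.out Nat.prime_two).1 h1)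

theorem ab_eq (hr2 : r ≠ 2) {i : Fin l} {A B : KK r} (hA : A ≠ 0)
    (h : phi hp (KK r) i (up A * lo B * up A) = phi hp (KK r) i (lo B * up A * lo B)) : A * B = -1 := by
  have h1 : phi hp (KK r) i ((up A * lo B * up A) * (lo B * up A * lo B)⁻¹) = 1 := by
    rw [map_mul, map_inv, h, mul_inv_cancel]
  have e1 : (up A * lo B * up A : Matrix.SpecialLinearGroup (Fin 2) (KK r)).1 =
      !![1 + A * B, A * (2 + A * B); B, 1 + A * B] := by
    show !![1, A; 0, 1] * !![1, 0; B, 1] * !![1, A; 0, 1] = _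
    ext i j
    fin_cases i <;> fin_cases j <;> simp [Matrix.mul_apply, Fin.sum_univ_two] <;> ring
  have e2 : (lo B * up A * lo B : Matrix.SpecialLinearGroup (Fin 2) (KK r)).1 =
      !![1 + A * B, A; B * (2 + A * B), 1 + A * B] := by
    show !![1, 0; B, 1] * !![1, A; 0, 1] * !![1, 0; B, 1] = _
    ext i j
    fin_cases i <;> fin_cases j <;> simp [Matrix.mul_apply, Fin.sum_univ_two] <;> ring
  rcases phi_ker hp r h1 with h2 | h2
  · have h3 := congrArg (fun g : Matrix.SpecialLinearGroup (Fin 2) (KK r) => g.1 0 1) (mul_inv_eq_one.1 h2)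
    simp only [e1, e2] at h3
    have h4 : A * (2 + A * B) = A := by simpa using h3
    have h5 : 2 + A * B = 1 := mul_left_cancel₀ hA (by rw [h4, mul_one])
    linear_combination h5
  · rw [mul_inv_eq_iff_eq_mul, neg_one_mul] at h2
    have h3 := congrArg (fun g : Matrix.SpecialLinearGroup (Fin 2) (KK r) => g.1 0 0) h2
    simp only [Matrix.SpecialLinearGroup.coe_neg, Matrix.neg_apply, e1, e2] at h3
    have h4 : 1 + A * B = -(1 + A * B) := by simpa using h3
    have h5 : (2 : KK r) * (1 + A * B) = 0 := by linear_combination h4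
    rcases mul_eq_zero.1 h5 with h6 | h6
    · exact absurd h6 (two_ne r hr2)
    · linear_combination h6

variable {r} {e : ℕ} {τ : MulAut ↥(D.group (KK r))} {γ : (Fin l → ℤ) ≃+ (Fin l → ℤ)}

/-- **The fundamental reflections.** -/
theorem exists_simple (hr2 : r ≠ 2) (he : 0 < e) (hτ : IsFrob r e τ)
    (F : Fr M.toCoxeterSystem hp.isCartan (TT D (KK r)) (XX D l (KK r)) τ γ) (i : Fin l) {ε : ℤ}
    (hε : ε = 1 ∨ ε = -1) (hγ : γ (sr i) = ε • sr i) :
    ∃ n ∈ Subgroup.closure {u | u ∈ RGD.Sup (XX D l (KK r)) {sr i, -sr i} ∧ τ u = u ∧ ∃ j : ℕ, u ^ r ^ j = 1},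
      NR hp r (M.toCoxeterSystem.simple i) n ∧ τ n = n := by
  have hri := isRoot_sr M.toCoxeterSystem hp.isCartan i
  obtain ⟨c1, hc1, h1⟩ := HX.fr_xc hp M.toCoxeterSystem hτ F hri
  obtain ⟨c2, hc2, h2⟩ := HX.fr_xc hp M.toCoxeterSystem hτ F hri.neg
  have hq : 1 < r ^ e := Nat.one_lt_pow he.ne' (Fact.out : r.Prime).one_lt
  let f : KK r →+* KK r := iterateFrobenius (KK r) r e
  have hf : ∀ x, f x = x ^ r ^ e := fun x => iterateFrobenius_def ..
  have hodd : Odd (r ^ e) := by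
    rcases (Fact.out : r.Prime).eq_two_or_odd' with h | h
    · exact absurd h hr2
    · exact h.pow
  have hru : ∀ u : Matrix.SpecialLinearGroup (Fin 2) (KK r), u.1 0 0 + u.1 1 1 = 2 →
      τ (phi hp (KK r) i u) = phi hp (KK r) i u → phi hp (KK r) i u ∈ Subgroup.closure
        {u | u ∈ RGD.Sup (XX D l (KK r)) {sr i, -sr i} ∧ τ u = u ∧ ∃ j : ℕ, u ^ r ^ j = 1} := by
    intro u hu hτu
    refine Subgroup.subset_closure ⟨phi_mem hp r i u, hτu, 1, ?_⟩
    rw [pow_one, ← map_pow, pow_char r u hu, map_one]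
  have hbr : nn (1 : KK r) = lo (-1) * up 1 * lo (-1) := by
    apply Subtype.ext
    rw [coe_nn one_ne_zero]
    show _ = !![1, 0; (-1 : KK r), 1] * !![1, 1; 0, 1] * !![1, 0; -1, 1]
    ext i j
    fin_cases i <;> fin_cases j <;> simp [Matrix.mul_apply, Fin.sum_univ_two]
  have hbr' : up (1 : KK r) * lo (-1) * up 1 = lo (-1) * up 1 * lo (-1) := by
    rw [← hbr, nn, inv_one]
  have hτ1 : τ (phi hp (KK r) i (up 1 * lo (-1) * up 1)) = τ (phi hp (KK r) i (lo (-1) * up 1 * lo (-1))) := by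
    rw [hbr']
  rcases hε with rfl | rfl
  · have g1 : γ (sr i) = sr i := by rw [hγ, one_smul]
    have g2 : γ (-sr i) = -sr i := by rw [map_neg, g1]
    rw [g1] at h1
    rw [g2] at h2
    rw [map_mul, map_mul, map_mul, map_mul, map_mul, map_mul, map_mul, map_mul, phi_up', phi_lo', h1, h2, one_pow,
      hodd.neg_one_pow, mul_one, mul_neg_one, ← phi_up', ← phi_lo', ← map_mul, ← map_mul, ← map_mul, ← map_mul] at hτ1
    have h3 := ab_eq hp r hr2 hc1 hτ1
    have h4 : c2 = c1⁻¹ := by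
      field_simp
      linear_combination -h3
    have h5 : ∀ A, τ (phi hp (KK r) i A) = phi hp (KK r) i (fp f c1 hc1 A) := by
      intro A
      refine ext2 (f := τ.toMonoidHom.comp (phi hp (KK r) i)) (g := (phi hp (KK r) i).comp (fp f c1 hc1))
        (fun a => ?_) (fun a => ?_) A
      · show τ (phi hp (KK r) i (up a)) = phi hp (KK r) i (fp f c1 hc1 (up a))
        rw [fp_up, phi_up', phi_up', h1, hf]
      · show τ (phi hp (KK r) i (lo a)) = phi hp (KK r) i (fp f c1 hc1 (lo a))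
        rw [fp_lo, phi_lo', phi_lo', h2, hf, h4]
    obtain ⟨t, ht0, ht1, ht2⟩ := exists_fp hf hq hc1
    refine ⟨phi hp (KK r) i (nn t), ?_, nr_nn hp r i ht0, ?_⟩
    · rw [nn, map_mul, map_mul]
      have k1 := hru (up t) (by rw [coe_up]; simp; norm_num) (by rw [h5, ht1])
      have k2 := hru (lo (-t⁻¹)) (by rw [coe_lo]; simp; norm_num) (by rw [h5, ht2])
      exact mul_mem (mul_mem k1 k2) k1
    · rw [h5, nn, map_mul (fp f c1 hc1), map_mul (fp f c1 hc1), ht1, ht2]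
  · have g1 : γ (sr i) = -sr i := by rw [hγ, neg_smul, one_smul]
    have g2 : γ (-sr i) = sr i := by rw [map_neg, g1, neg_neg]
    rw [g1] at h1
    rw [g2] at h2
    rw [map_mul, map_mul, map_mul, map_mul, map_mul, map_mul, map_mul, map_mul, phi_up', phi_lo', h1, h2, one_pow,
      hodd.neg_one_pow, mul_one, mul_neg_one, ← phi_up', ← phi_lo', ← map_mul, ← map_mul, ← map_mul, ← map_mul] at hτ1
    have h3 := ab_eq hp r hr2 (neg_ne_zero.2 hc2) hτ1.symm
    have h4 : c2 = c1⁻¹ := by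
      field_simp
      linear_combination -h3
    have h5 : ∀ A, τ (phi hp (KK r) i A) = phi hp (KK r) i (fn f c1 hc1 A) := by
      intro A
      refine ext2 (f := τ.toMonoidHom.comp (phi hp (KK r) i)) (g := (phi hp (KK r) i).comp (fn f c1 hc1))
        (fun a => ?_) (fun a => ?_) A
      · show τ (phi hp (KK r) i (up a)) = phi hp (KK r) i (fn f c1 hc1 (up a))
        rw [fn_up, phi_up', phi_lo', h1, hf]
      · show τ (phi hp (KK r) i (lo a)) = phi hp (KK r) i (fn f c1 hc1 (lo a))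
        rw [fn_lo, phi_lo', phi_up', h2, hf, h4]
    obtain ⟨t, ht0, u, v, hu, hv, hu2, hv2, huv⟩ := exists_fn (two_ne r hr2) hf hq hc1
    refine ⟨phi hp (KK r) i (nn t), ?_, nr_nn hp r i ht0, ?_⟩
    · rw [← huv, map_mul]
      exact mul_mem (hru u hu2 (by rw [h5, hu])) (hru v hv2 (by rw [h5, hv]))
    · rw [h5, ← huv, map_mul (fn f c1 hc1), hu, hv]

variable {hp} {p : ℕ} {E H : Subgroup ↥(D.group (KK r))}

/-- conjugation of `InS` with fixed elements of `H` -/
theorem ins_rep {n : ↥(D.group (KK r))} (hn : n ∈ H) (hτ : τ n = n) {w : M.Group} (hw : NR hp r w n)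
    {S S' : Set (Fin l → ℤ)} (hS : ∀ a ∈ S, IsRoot M.toCoxeterSystem hp.isCartan a)
    (hSS : ∀ a, rep M.toCoxeterSystem hp.isCartan w a ∈ S' ↔ a ∈ S) (h : InS r l τ H S) : InS r l τ H S' := by
  rintro u hu hτu ⟨j, hj⟩
  have h1 : n⁻¹ * u * n ∈ H := by
    refine h _ ?_ ?_ ⟨j, ?_⟩
    · rw [← (nr_frame hw).mem_Sup hS hSS]
      have h2 : MulAut.conj n (n⁻¹ * u * n) = u := by rw [MulAut.conj_apply]; group
      rw [h2]
      exact hu
    · rw [map_mul, map_mul, map_inv, hτ, hτu]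
    · have h2 : n⁻¹ * u * n = n⁻¹ * u * n⁻¹⁻¹ := by rw [inv_inv]
      rw [h2, conj_pow, hj, mul_one, mul_inv_cancel]
  have h2 : u = n * (n⁻¹ * u * n) * n⁻¹ := by group
  rw [h2]
  exact mul_mem (mul_mem hn h1) (inv_mem hn)

/-- **The reflections in the roots `c` with `γ c = ± c`.** -/
theorem exists_rep (S : Sit hp r p e τ γ E H) (hr2 : r ≠ 2) {c : Fin l → ℤ}
    (hc : IsRoot M.toCoxeterSystem hp.isCartan c) {ε : ℤ} (hε : ε = 1 ∨ ε = -1) (hγ : γ c = ε • c)
    (hS : InS r l τ H {c, -c}) : ∃ n ∈ H, τ n = n ∧ ∃ s : M.Group, NR hp r s n ∧ s * s = 1 ∧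
      ∀ x, rep M.toCoxeterSystem hp.isCartan s x = x - cpr M.toCoxeterSystem hp.isCartan x c • c := by
  have := finite_W hp M.toCoxeterSystem
  obtain ⟨w, i, rfl⟩ := hc
  obtain ⟨g, hg⟩ : ∃ g, NR hp r w g :=
    exists_rp M.toCoxeterSystem (tow (k := KK r) hp M.toCoxeterSystem (locFin r) r).nsys w
  have F1 := ((nr_frame (nr_inv hg)).mul S.fr).mul (nr_frame hg)
  have e1 : MulAut.conj g⁻¹ * τ * MulAut.conj g = MulAut.conj (g⁻¹ * τ g) * τ := by
    apply MulEquiv.ext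
    intro u
    show g⁻¹ * τ (g * u * g⁻¹) * g⁻¹⁻¹ = (g⁻¹ * τ g) * τ u * (g⁻¹ * τ g)⁻¹
    rw [map_mul, map_mul, map_inv]
    group
  have hfr : IsFrob r e (MulAut.conj g⁻¹ * τ * MulAut.conj g) := by
    rw [e1]; exact S.frob.conj_mul _
  obtain ⟨n, hn, hn1, hn2⟩ := exists_simple hp hr2 S.he hfr F1 i hε (by
    show rep M.toCoxeterSystem hp.isCartan w⁻¹ (γ (rep M.toCoxeterSystem hp.isCartan w (sr i))) = ε • sr i
    rw [hγ, map_zsmul, rep_inv_apply])
  have hτg : ∀ u, (MulAut.conj g⁻¹ * τ * MulAut.conj g) u = u → τ (g * u * g⁻¹) = g * u * g⁻¹ := by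
    intro u hu
    have h1 : g⁻¹ * τ (g * u * g⁻¹) * g⁻¹⁻¹ = u := hu
    calc τ (g * u * g⁻¹) = g * (g⁻¹ * τ (g * u * g⁻¹) * g⁻¹⁻¹) * g⁻¹ := by group
      _ = _ := by rw [h1]
  have hH : Subgroup.closure {u | u ∈ RGD.Sup (XX D l (KK r)) {sr i, -sr i} ∧
      (MulAut.conj g⁻¹ * τ * MulAut.conj g) u = u ∧ ∃ j : ℕ, u ^ r ^ j = 1} ≤ H.comap (MulAut.conj g).toMonoidHom := by
    refine (Subgroup.closure_le _).2 ?_
    rintro u ⟨hu, hu1, j, hj⟩
    show g * u * g⁻¹ ∈ H
    refine hS _ ?_ (hτg u hu1) ⟨j, by rw [conj_pow, hj, mul_one, mul_inv_cancel]⟩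
    have hri := isRoot_sr M.toCoxeterSystem hp.isCartan i
    refine ((nr_frame hg).mem_Sup (S := {sr i, -sr i}) ?_ ?_ u).2 hu
    · rintro a (rfl | rfl)
      · exact hri
      · exact hri.neg
    · intro a
      show rep M.toCoxeterSystem hp.isCartan w a ∈ _ ↔ _
      rw [Set.mem_insert_iff, Set.mem_singleton_iff, Set.mem_insert_iff, Set.mem_singleton_iff, ← map_neg]
      have hinj : Function.Injective (rep M.toCoxeterSystem hp.isCartan w) := by
        intro a b hab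
        have h3 := congrArg (rep M.toCoxeterSystem hp.isCartan w⁻¹) hab
        rwa [rep_inv_apply, rep_inv_apply] at h3
      rw [hinj.eq_iff, hinj.eq_iff]
  refine ⟨g * n * g⁻¹, hH hn, hτg n hn2, rfl' M.toCoxeterSystem w i, nr_conj hn1 hg, ?_, fun x => rep_rfl'_eq _ _ w i x⟩
  unfold rfl'
  have h3 := M.toCoxeterSystem.simple_mul_simple_self i
  calc w * M.toCoxeterSystem.simple i * w⁻¹ * (w * M.toCoxeterSystem.simple i * w⁻¹) =
      w * (M.toCoxeterSystem.simple i * M.toCoxeterSystem.simple i) * w⁻¹ := by group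
    _ = 1 := by rw [h3]; group

/-- **Conjugation of `InS` with the reflections in the roots `c` with `γ c = ± c`.** -/
theorem ins_refl (S : Sit hp r p e τ γ E H) (hr2 : r ≠ 2) {c : Fin l → ℤ}
    (hc : IsRoot M.toCoxeterSystem hp.isCartan c) {ε : ℤ} (hε : ε = 1 ∨ ε = -1) (hγ : γ c = ε • c)
    (hS : InS r l τ H {c, -c}) {A A' : Set (Fin l → ℤ)} (hA : ∀ a ∈ A, IsRoot M.toCoxeterSystem hp.isCartan a)
    (hAA : ∀ a, a - cpr M.toCoxeterSystem hp.isCartan a c • c ∈ A' ↔ a ∈ A) (h : InS r l τ H A) : InS r l τ H A' := by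
  obtain ⟨n, hn, hτ, s, hs, -, hsx⟩ := exists_rep S hr2 hc hε hγ hS
  exact ins_rep hn hτ hs hA (fun a => by rw [hsx]; exact hAA a) h

end Y

end Cfsg.Agent.H82.Mono.Refl
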