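import Cfsg.Agent.H82.Mono.Comb6
import Cfsg.Agent.H82.Mono.Refl
import Cfsg.Agent.H225.Mono.End

/-!
# S2187, X4, `E₆` with the unmatched sign: the group and the root lattice (helper82)

* `pairing_B`, `B_rep`, `cpr_B`, `root_iff`, `mem_LL6`;
* `rot_of_VE` : the elements of the image of `E` satisfy `Rot`;
* `commute_of_B` : orthogonal root groups commute;
* `end_dl` : the end.
-/

set_option autoImplicit false
set_option linter.unusedSectionVars false

namespace Cfsg.Agent.H82.Mono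

open CoxeterSystem Cfsg Cfsg.Lie Cfsg.Lie.ChevalleyDatum
open Cfsg.Agent.ChevalleyStructure Cfsg.Agent.ChevalleyStructure.Elts Cfsg.Agent.ChevalleyStructure.CoxeterGeom
  Cfsg.Agent.ChevalleyStructure.CoxeterGeomTypes Cfsg.Agent.ChevalleyStructure.NPerm
open Cfsg.Agent.Tits.Roots Cfsg.Agent.Tits.Core Cfsg.Agent.Nodes Cfsg.Agent.Nodes.Reps Cfsg.Agent.Nodes.BNOf
  Cfsg.Agent.Nodes.SubComb Cfsg.Agent.Nodes.RGDChev Cfsg.Agent.Nodes.Bruhat Cfsg.Agent.Nodes.Coroot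
open Cfsg.Agent.KFacts.RgdField Cfsg.Agent.KFacts.RgdChevCoord
open Cfsg.Agent.BpExc Cfsg.Agent.BpExc.TorCent Cfsg.Agent.BpExc.TorChev Cfsg.Agent.BpExc.Tow
  Cfsg.Agent.BpExc.TowChev Cfsg.Agent.BpExc.Fr Cfsg.Agent.BpExc.LangFr
open Cfsg.Agent.H469.Exc Cfsg.Agent.H316.U6 Cfsg.Agent.H818.Gen Cfsg.Agent.H818.Mono Cfsg.Agent.H696.GmnToral
open Cfsg.Agent.H225.Gen Cfsg.Agent.H225.Mono Cfsg.Agent.H496.Mono
open Cfsg.Agent.H720.TwFr
open Cfsg.Agent.H129.TorusChar (cX IsMC cX_root cX_mul cX_pow cX_one cX_inj isMC_cX exists_cX)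

universe v

/-! ### the root lattice -/

theorem cartan_E6 : ∀ i k : Fin 6, cartanOf chevE6 6 i k = (![![2, 0, -1, 0, 0, 0], ![0, 2, 0, -1, 0, 0],
    ![-1, 0, 2, -1, 0, 0], ![0, -1, -1, 2, -1, 0], ![0, 0, 0, -1, 2, -1], ![0, 0, 0, 0, -1, 2]] :
      Fin 6 → Fin 6 → ℤ) i k := by decide +kernel

theorem pairing_B (i : Fin 6) (x : Fin 6 → ℤ) : pairing (cartanOf chevE6 6) i x = B x (sr i) := by
  unfold pairing
  simp only [cartan_E6, Fin.sum_univ_six]
  unfold B sr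
  fin_cases i <;> simp <;> ring

variable {M : CoxeterMatrix (Fin 6)} (hp : IsType chevE6 6 M)

theorem B_sr (i : Fin 6) : B (sr i) (sr i) = 2 := by
  revert i; decide +kernel

theorem B_smul (c : ℤ) (x z : Fin 6 → ℤ) : B (c • x) z = c * B x z := by
  unfold B; simp only [Pi.smul_apply, smul_eq_mul]; ring

theorem B_smul' (c : ℤ) (x z : Fin 6 → ℤ) : B z (c • x) = c * B z x := by
  rw [B_comm, B_smul, B_comm x]

theorem B_rep (w : M.Group) (x y : Fin 6 → ℤ) : B (rep M.toCoxeterSystem hp.isCartan w x)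
    (rep M.toCoxeterSystem hp.isCartan w y) = B x y := by
  induction w using M.toCoxeterSystem.simple_induction_left with
  | one => rw [map_one, Module.End.one_apply, Module.End.one_apply]
  | mul_simple_left w i ih =>
    rw [rep_mul_apply, rep_mul_apply, rep_simple_eq, rep_simple_eq, pairing_B, pairing_B, ← ih]
    generalize rep M.toCoxeterSystem hp.isCartan w x = u
    generalize rep M.toCoxeterSystem hp.isCartan w y = v
    rw [B_sub, B_sub', B_sub', B_smul, B_smul', B_smul', B_smul, B_sr, B_comm (sr i) v]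
    ring

theorem cpr_B (x : Fin 6 → ℤ) {y : Fin 6 → ℤ} (hy : IsRoot M.toCoxeterSystem hp.isCartan y) :
    cpr M.toCoxeterSystem hp.isCartan x y = B x y := by
  have := finite_W hp M.toCoxeterSystem
  obtain ⟨w, i, rfl⟩ := hy
  rw [cpr_rep_sr, pairing_B, ← B_rep hp w, rep_apply_inv]

theorem root_iff {x : Fin 6 → ℤ} : IsRoot M.toCoxeterSystem hp.isCartan x ↔ R6 x :=
  isRoot_iff hp M.toCoxeterSystem x

theorem LL_adj {a b : Fin 6 → ℤ} (ha : a ∈ LL M.toCoxeterSystem hp) (hb : IsRoot M.toCoxeterSystem hp.isCartan b)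
    (h : B a b = 1 ∨ B a b = -1) : b ∈ LL M.toCoxeterSystem hp := by
  have har := LL_root hi_E6 hp M.toCoxeterSystem ha
  have h1 := LL_refl hp M.toCoxeterSystem ha hb
  have h2 := LL_refl hp M.toCoxeterSystem h1 har
  rw [cpr_B hp _ hb, cpr_B hp _ har] at h2
  have haa := ((root_iff hp).1 har).norm
  rcases h with h | h
  · rw [h, one_smul, B_sub, haa, B_comm b, h] at h2
    have h3 : a - b - (2 - 1 : ℤ) • a = -b := by module
    rw [h3] at h2
    have h4 := LL_neg hi_E6 hp M.toCoxeterSystem h2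
    rwa [neg_neg] at h4
  · rw [h, neg_one_smul, B_sub, haa, B_neg, B_comm b, h] at h2
    have h3 : a - -b - (2 - - -1 : ℤ) • a = b := by module
    rwa [h3] at h2

theorem mem_LL6 {x : Fin 6 → ℤ} (hx : IsRoot M.toCoxeterSystem hp.isCartan x) : x ∈ LL M.toCoxeterSystem hp := by
  have h0 := th_mem hp M.toCoxeterSystem
  have hs := fun i => isRoot_sr M.toCoxeterSystem hp.isCartan (i : Fin 6)
  have h1 : sr 1 ∈ LL M.toCoxeterSystem hp := LL_adj hp h0 (hs 1) (by decide +kernel)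
  have h3 : sr 3 ∈ LL M.toCoxeterSystem hp := LL_adj hp h1 (hs 3) (by decide +kernel)
  have h2 : sr 2 ∈ LL M.toCoxeterSystem hp := LL_adj hp h3 (hs 2) (by decide +kernel)
  have h4 : sr 4 ∈ LL M.toCoxeterSystem hp := LL_adj hp h3 (hs 4) (by decide +kernel)
  have h5 : sr 0 ∈ LL M.toCoxeterSystem hp := LL_adj hp h2 (hs 0) (by decide +kernel)
  have h6 : sr 5 ∈ LL M.toCoxeterSystem hp := LL_adj hp h4 (hs 5) (by decide +kernel)
  obtain ⟨w, i, rfl⟩ := hx
  refine LL_rep hp M.toCoxeterSystem ?_ w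
  fin_cases i
  · exact h5
  · exact h1
  · exact h2
  · exact h3
  · exact h4
  · exact h6

theorem dl_smul (c : ℤ) (x : Fin 6 → ℤ) : dl (c • x) = c • dl x := by
  funext i
  fin_cases i <;> rfl

/-- additive maps agreeing on the roots -/
theorem add_ext {f g : (Fin 6 → ℤ) → (Fin 6 → ℤ)} (hf : ∀ x y, f (x + y) = f x + f y)
    (hg : ∀ x y, g (x + y) = g x + g y) (h : ∀ i, f (sr i) = g (sr i)) (x : Fin 6 → ℤ) : f x = g x := by
  have h1 : AddMonoidHom.mk' f hf = AddMonoidHom.mk' g hg := by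
    refine AddMonoidHom.functions_ext _ _ _ fun i c => ?_
    have h2 : (Pi.single i c : Fin 6 → ℤ) = c • sr i := by
      rw [sr, ← Pi.single_smul, smul_eq_mul, mul_one]
    rw [h2, map_zsmul, map_zsmul]
    congr 1
    exact h i
  exact DFunLike.congr_fun h1 x

section Sit

variable {hp} {r : ℕ} [Fact r.Prime] {e : ℕ} {τ : MulAut ↥(chevE6.group (KK r))} {γ : (Fin 6 → ℤ) ≃+ (Fin 6 → ℤ)}
  {E H : Subgroup ↥(chevE6.group (KK r))} {ε : ℤ}

theorem rot_of_VE (S : Sit hp r 3 e τ γ E H) (hε : ε = 1 ∨ ε = -1) (hγ : ∀ x, γ x = ε • permE rho6 x)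
    (hNP : NoPlus hp r E (SS hp γ ε)) {v : M.Group} (hv : v ∈ VE hp r E) :
    Rot fun x => rep M.toCoxeterSystem hp.isCartan v x where
  add x y := map_add _ x y
  iso x y := B_rep hp v x y
  cube x := by
    rw [← rep_mul_apply, ← rep_mul_apply, ← pow_two, ← pow_succ, VE_pow S hv, map_one, Module.End.one_apply]
  com := by
    refine add_ext (f := fun x => rep M.toCoxeterSystem hp.isCartan v (dl x))
      (g := fun x => dl (rep M.toCoxeterSystem hp.isCartan v x)) (fun x y => ?_) (fun x y => ?_) fun i => ?_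
    · show rep M.toCoxeterSystem hp.isCartan v (dl (x + y)) = _
      rw [dl_add, map_add]
    · show dl (rep M.toCoxeterSystem hp.isCartan v (x + y)) = _
      rw [map_add, dl_add]
    · show rep M.toCoxeterSystem hp.isCartan v (dl (sr i)) = dl (rep M.toCoxeterSystem hp.isCartan v (sr i))
      have h1 := VE_gam S hv (isRoot_sr M.toCoxeterSystem hp.isCartan i)
      rw [hγ, hγ, dl_eq, dl_eq, map_zsmul] at h1
      rcases hε with rfl | rfl
      · rw [one_smul, one_smul] at h1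
        exact h1.symm
      · rw [neg_one_smul, neg_one_smul] at h1
        exact (neg_injective h1).symm
  root x hx := (root_iff hp).1 (((root_iff hp).2 hx).act v)
  np b hb hd h1 := by
    obtain ⟨y, hy, hyv⟩ := hv
    have hbr := (root_iff hp).2 hb
    refine hNP y hy v hyv b ⟨mem_LL6 hp hbr, by rw [hγ, dl_eq, hd]⟩ ?_
    rw [cpr_B hp _ hbr]
    exact h1

end Sit

/-! ### the end -/

/-- the coordinates of the coinvariants of the diagram automorphism -/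
def ph (x : Fin 6 → ℤ) : Fin 4 → ℤ := ![x 0 + x 5, x 1, x 2 + x 4, x 3]

theorem t_mod : ∀ i < 72, ∀ j < 72, (∀ k, (ph (vec chevE6 6 j) k - ph (vec chevE6 6 i) k) % 3 = 0) →
    vec chevE6 6 j = vec chevE6 6 i ∨ vec chevE6 6 j = dl (vec chevE6 6 i) := by decide +kernel

theorem t_mod0 : ∀ i < 72, ∃ k, ph (vec chevE6 6 i) k % 3 ≠ 0 := by decide +kernel

theorem ph_dl (x : Fin 6 → ℤ) : ph (dl x) = ph x := by
  funext k
  fin_cases k
  · show x 5 + x 0 = x 0 + x 5; ring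
  · rfl
  · show x 4 + x 2 = x 2 + x 4; ring
  · rfl

theorem ph_neg (x : Fin 6 → ℤ) : ph (-x) = -ph x := by
  funext k
  fin_cases k
  · show -x 0 + -x 5 = -(x 0 + x 5); ring
  · rfl
  · show -x 2 + -x 4 = -(x 2 + x 4); ring
  · rfl

theorem eq_or_of_ph {a b : Fin 6 → ℤ} (ha : R6 a) (hb : R6 b) (h : ∀ k, (3 : ℤ) ∣ ph b k - ph a k) :
    b = a ∨ b = dl a := by
  obtain ⟨i, hi, rfl⟩ := ha
  obtain ⟨j, hj, rfl⟩ := hb
  exact t_mod i hi j hj fun k => Int.emod_eq_zero_of_dvd (h k)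

theorem ph_ne {a : Fin 6 → ℤ} (ha : R6 a) : ∃ k, ¬ (3 : ℤ) ∣ ph a k := by
  obtain ⟨i, hi, rfl⟩ := ha
  obtain ⟨k, hk⟩ := t_mod0 i hi
  exact ⟨k, fun h => hk (Int.emod_eq_zero_of_dvd h)⟩

section End

variable (r : ℕ) [hr : Fact r.Prime]

/-- the elements of order dividing three of the torus centralised by the diagram automorphism -/
def TD : Subgroup ↥(chevE6.group (KK r)) where
  carrier := {t | t ∈ TP hp r 3 ∧ ∀ x, cX hp t (dl x) = cX hp t x}
  one_mem' := ⟨one_mem _, fun x => by rw [cX_one, cX_one]⟩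
  mul_mem' := by
    rintro a b ⟨ha, ha'⟩ ⟨hb, hb'⟩
    exact ⟨mul_mem ha hb, fun x => by rw [cX_mul hp ha.1 hb.1, cX_mul hp ha.1 hb.1, ha', hb']⟩
  inv_mem' := by
    rintro a ⟨ha, ha'⟩
    refine ⟨inv_mem ha, fun x => ?_⟩
    have h1 : ∀ y, cX hp a⁻¹ y * cX hp a y = 1 := fun y => by
      rw [← cX_mul hp (inv_mem ha.1) ha.1, inv_mul_cancel, cX_one]
    have h2 := h1 (dl x)
    rw [ha', ← h1 x] at h2
    exact mul_right_cancel₀ ((isMC_cX hp ha.1).ne_zero x) h2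

theorem TD_le : TD hp r ≤ TP hp r 3 := fun _ ht => ht.1

theorem TD_el : IsElementaryAbelian 3 (TD hp r) := by
  refine ⟨⟨⟨?_⟩⟩, fun y hy => hy.1.2⟩
  rintro ⟨a, ha⟩ ⟨b, hb⟩
  exact Subtype.ext (TT_comm hp a ha.1.1 b hb.1.1)

/-- the coordinate elements -/
theorem exists_coordsD (h3r : 3 ≠ r) : ∃ ζ : KK r, IsPrimitiveRoot ζ 3 ∧ ∃ s : Fin 4 → ↥(chevE6.group (KK r)),
    ∀ k, s k ∈ TD hp r ∧ ∀ x, cX hp (s k) x = ζ ^ (ph x k) := by
  obtain ⟨d, B', hB, hd⟩ := exists_invC hp (fun h1 => not_hi_B2 (h1 ▸ hi_E6)) (by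
    intro h
    have h1 := congrArg ChevalleyDatum.nroots h
    revert h1
    decide +kernel)
  obtain ⟨ζ, hζ, t, ht⟩ := exists_coords hp hB (by rcases hd with ⟨rfl, -⟩ | ⟨rfl, -⟩ | ⟨rfl, -⟩ <;> norm_num)
    Nat.prime_three h3r
  have hζ0 : ζ ≠ 0 := hζ.ne_zero (by norm_num)
  have hT : ∀ j, t j ∈ TT chevE6 (KK r) := fun j => (ht j).1.1
  refine ⟨ζ, hζ, ![t 0 * t 5, t 1, t 2 * t 4, t 3], fun k => ?_⟩
  have key : ∀ (u : ↥(chevE6.group (KK r))), u ∈ TP hp r 3 → (∀ x, cX hp u x = ζ ^ (ph x k)) → u ∈ TD hp r ∧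
      ∀ x, cX hp u x = ζ ^ (ph x k) := fun u hu h => ⟨⟨hu, fun x => by rw [h, h, ph_dl]⟩, h⟩
  fin_cases k
  · refine key _ (mul_mem (ht 0).1 (ht 5).1) fun x => ?_
    show cX hp (t 0 * t 5) x = ζ ^ (x 0 + x 5)
    rw [cX_mul hp (hT 0) (hT 5), (ht 0).2, (ht 5).2, zpow_add₀ hζ0]
  · exact key _ (ht 1).1 fun x => (ht 1).2 x
  · refine key _ (mul_mem (ht 2).1 (ht 4).1) fun x => ?_
    show cX hp (t 2 * t 4) x = ζ ^ (x 2 + x 4)
    rw [cX_mul hp (hT 2) (hT 4), (ht 2).2, (ht 4).2, zpow_add₀ hζ0]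
  · exact key _ (ht 3).1 fun x => (ht 3).2 x

/-- **The roots trivial on a hyperplane of `TD`.** -/
theorem S0_dl (h3r : 3 ≠ r) {F : Subgroup ↥(chevE6.group (KK r))} (hF : F ≤ TD hp r)
    (hi : F.relIndex (TD hp r) = 3) {a b : Fin 6 → ℤ} (ha : a ∈ S0 hp r F) (hb : b ∈ S0 hp r F) :
    b = a ∨ b = -a ∨ b = dl a ∨ b = -dl a := by
  obtain ⟨ζ, hζ, s, hs⟩ := exists_coordsD hp r h3r
  have hone : ∀ z : ℤ, ζ ^ z = 1 ↔ (3 : ℤ) ∣ z := fun z => by exact_mod_cast hζ.zpow_eq_one_iff_dvd z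
  have hζ0 : ζ ≠ 0 := hζ.ne_zero (by norm_num)
  have hTT : ∀ t ∈ TD hp r, t ∈ TT chevE6 (KK r) := fun t ht => ht.1.1
  -- an element outside `F`
  obtain ⟨t₀, ht₀, ht₀F⟩ : ∃ t₀ ∈ TD hp r, t₀ ∉ F := by
    by_contra hcon
    push Not at hcon
    have h1 : F.relIndex (TD hp r) = 1 := Subgroup.relIndex_eq_one.2 hcon
    omega
  have hsup : ∀ L : Subgroup ↥(chevE6.group (KK r)), F ≤ L → t₀ ∈ L → TD hp r ≤ L := by
    intro L h1 h2
    have h3 : F ≤ F ⊔ Subgroup.zpowers t₀ := le_sup_left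
    have h4 : F ⊔ Subgroup.zpowers t₀ ≤ TD hp r := sup_le hF (by rw [Subgroup.zpowers_le]; exact ht₀)
    have h5 := Subgroup.relIndex_mul_relIndex F (F ⊔ Subgroup.zpowers t₀) (TD hp r) h3 h4
    rw [hi] at h5
    have h6 : F.relIndex (F ⊔ Subgroup.zpowers t₀) ≠ 1 := by
      intro h7
      rw [Subgroup.relIndex_eq_one] at h7
      exact ht₀F (h7 (Subgroup.mem_sup_right (Subgroup.mem_zpowers t₀)))
    rcases (Nat.dvd_prime Nat.prime_three).1 ⟨_, h5.symm⟩ with h7 | h7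
    · exact absurd h7 h6
    · rw [h7] at h5
      have h8 : (F ⊔ Subgroup.zpowers t₀).relIndex (TD hp r) = 1 := by omega
      rw [Subgroup.relIndex_eq_one] at h8
      exact h8.trans (sup_le h1 (by rw [Subgroup.zpowers_le]; exact h2))
  -- the subgroup of the elements with `b = j a`
  let L : ℕ → Subgroup ↥(chevE6.group (KK r)) := fun j =>
    { carrier := {x | x ∈ TT chevE6 (KK r) ∧ cX hp x b = cX hp x a ^ j}
      one_mem' := ⟨one_mem _, by rw [cX_one, cX_one, one_pow]⟩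
      mul_mem' := by
        rintro x y ⟨hx, hx'⟩ ⟨hy, hy'⟩
        exact ⟨mul_mem hx hy, by rw [cX_mul hp hx hy, cX_mul hp hx hy, hx', hy', mul_pow]⟩
      inv_mem' := by
        rintro x ⟨hx, hx'⟩
        refine ⟨inv_mem hx, ?_⟩
        have h1 : cX hp x⁻¹ b * cX hp x b = 1 := by
          rw [← cX_mul hp (inv_mem hx) hx, inv_mul_cancel, cX_one]
        have h2 : cX hp x⁻¹ a ^ j * cX hp x a ^ j = 1 := by
          rw [← mul_pow, ← cX_mul hp (inv_mem hx) hx, inv_mul_cancel, cX_one, one_pow]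
        rw [← hx', ← h1] at h2
        exact (mul_right_cancel₀ ((isMC_cX hp hx).ne_zero b) h2).symm }
  have hFa : ∀ x ∈ F, cX hp x a = 1 := fun x hx => by
    rw [cX_root hp M.toCoxeterSystem (hTT x (hF hx)) ha.1]; exact ha.2 x hx
  have hFb : ∀ x ∈ F, cX hp x b = 1 := fun x hx => by
    rw [cX_root hp M.toCoxeterSystem (hTT x (hF hx)) hb.1]; exact hb.2 x hx
  have hpw : ∀ c : Fin 6 → ℤ, cX hp t₀ c ^ 3 = 1 := fun c => by
    rw [← cX_pow hp ht₀.1.1, ht₀.1.2, cX_one]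
  have hLs : ∀ j : ℕ, cX hp t₀ b = cX hp t₀ a ^ j → ∀ k, (3 : ℤ) ∣ ph b k - j * ph a k := by
    intro j hj k
    have h2 : s k ∈ L j := hsup (L j) (fun x hx => ⟨hTT x (hF hx), by rw [hFa x hx, hFb x hx, one_pow]⟩)
      ⟨ht₀.1.1, hj⟩ (hs k).1
    have h3 : cX hp (s k) b = cX hp (s k) a ^ j := h2.2
    rw [(hs k).2, (hs k).2, ← zpow_natCast, ← zpow_mul] at h3
    rw [← hone, zpow_sub₀ hζ0, h3, mul_comm, div_self (zpow_ne_zero _ hζ0)]
  have hra := (root_iff hp).1 ha.1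
  have hrb := (root_iff hp).1 hb.1
  have ha1 : cX hp t₀ a ≠ 1 := by
    intro h1
    obtain ⟨k, hk⟩ := ph_ne hra
    let L' : Subgroup ↥(chevE6.group (KK r)) :=
      { carrier := {x | x ∈ TT chevE6 (KK r) ∧ cX hp x a = 1}
        one_mem' := ⟨one_mem _, cX_one hp a⟩
        mul_mem' := by
          rintro x y ⟨hx, hx'⟩ ⟨hy, hy'⟩
          exact ⟨mul_mem hx hy, by rw [cX_mul hp hx hy, hx', hy', one_mul]⟩
        inv_mem' := by
          rintro x ⟨hx, hx'⟩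
          refine ⟨inv_mem hx, ?_⟩
          have h1 : cX hp x⁻¹ a * cX hp x a = 1 := by
            rw [← cX_mul hp (inv_mem hx) hx, inv_mul_cancel, cX_one]
          rwa [hx', mul_one] at h1 }
    have h2 : s k ∈ L' := hsup L' (fun x hx => ⟨hTT x (hF hx), hFa x hx⟩) ⟨ht₀.1.1, h1⟩ (hs k).1
    have h3 : cX hp (s k) a = 1 := h2.2
    rw [(hs k).2, hone] at h3
    exact hk h3
  have hprim : IsPrimitiveRoot (cX hp t₀ a) 3 := by
    rw [IsPrimitiveRoot.iff_orderOf]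
    have : Fact (Nat.Prime 3) := ⟨Nat.prime_three⟩
    exact (orderOf_eq_prime (hpw a) ha1)
  obtain ⟨j, hj3, hj⟩ := hprim.eq_pow_of_pow_eq_one (hpw b)
  have h1 := hLs j hj.symm
  interval_cases j
  · exfalso
    obtain ⟨k, hk⟩ := ph_ne hrb
    have h2 := h1 k
    rw [Nat.cast_zero, zero_mul, sub_zero] at h2
    exact hk h2
  · rcases eq_or_of_ph hra hrb (fun k => by have := h1 k; rwa [Nat.cast_one, one_mul] at this) with h2 | h2
    · exact Or.inl h2
    · exact Or.inr (Or.inr (Or.inl h2))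
  · rcases eq_or_of_ph ((root_iff hp).1 ha.1.neg) hrb (fun k => by
      have h2 := h1 k
      rw [ph_neg, Pi.neg_apply]
      have h3 : ph b k - -ph a k = (ph b k - ((2 : ℕ) : ℤ) * ph a k) + 3 * ph a k := by push_cast; ring
      rw [h3]
      exact dvd_add h2 (dvd_mul_right _ _)) with h2 | h2
    · exact Or.inr (Or.inl h2)
    · rw [dl_neg] at h2
      exact Or.inr (Or.inr (Or.inr h2))

/-- the group `TD` is fixed -/
theorem fix_TD {e : ℕ} {τ : MulAut ↥(chevE6.group (KK r))} {γ : (Fin 6 → ℤ) ≃+ (Fin 6 → ℤ)} (hτ : IsFrob r e τ)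
    (F : Fr M.toCoxeterSystem hp.isCartan (TT chevE6 (KK r)) (XX chevE6 6 (KK r)) τ γ) {ε : ℤ} (hε : Eps 3 (r ^ e) ε)
    (hγ : ∀ x, γ x = ε • permE rho6 x) {t : ↥(chevE6.group (KK r))} (ht : t ∈ TD hp r) : τ t = t := by
  have hT := ht.1.1
  have hpw : ∀ c : Fin 6 → ℤ, cX hp t c ^ 3 = 1 := fun c => by
    rw [← cX_pow hp hT, ht.1.2, cX_one]
  refine cX_inj hp ((F.tor t).2 hT) hT fun i => ?_
  have hri := isRoot_sr M.toCoxeterSystem hp.isCartan i
  have hrd : IsRoot M.toCoxeterSystem hp.isCartan (dl (sr i)) := (root_iff hp).2 ((root_iff hp).1 hri).dl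
  have h0 := (isMC_cX hp hT).ne_zero (sr i)
  obtain ⟨h1, h2⟩ := hε
  have hk := locFin r
  obtain ⟨c, hc⟩ := h2
  push_cast at hc
  rcases h1 with rfl | rfl
  · have h3 := fr_ch hp M.toCoxeterSystem hk hτ F hrd hT
    rw [hγ, one_smul, dl_eq, dl_dl, ← cX_root hp M.toCoxeterSystem ((F.tor t).2 hT) hri,
      ← cX_root hp M.toCoxeterSystem hT hrd, ht.2] at h3
    rw [h3, ← zpow_natCast]
    have h4 : ((r ^ e : ℕ) : ℤ) = 1 + 3 * c := by push_cast; linarith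
    rw [h4, zpow_add₀ h0, zpow_one, zpow_mul, show ((3 : ℤ)) = ((3 : ℕ) : ℤ) from rfl, zpow_natCast, hpw, one_zpow,
      mul_one]
  · have h3 := fr_ch hp M.toCoxeterSystem hk hτ F hrd.neg hT
    rw [hγ, dl_eq, dl_neg, dl_dl, neg_smul_neg, one_smul, ← cX_root hp M.toCoxeterSystem ((F.tor t).2 hT) hri,
      ← cX_root hp M.toCoxeterSystem hT hrd.neg, (isMC_cX hp hT).neg, ht.2] at h3
    rw [h3, inv_pow, ← zpow_natCast, ← zpow_neg]
    have h4 : -((r ^ e : ℕ) : ℤ) = 1 + 3 * (-c) := by push_cast; linarith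
    rw [h4, zpow_add₀ h0, zpow_one, zpow_mul, show ((3 : ℤ)) = ((3 : ℕ) : ℤ) from rfl, zpow_natCast, hpw, one_zpow,
      mul_one]

variable {hp} {r} {q : ℕ} {K₀ : Type v} [Group K₀]

/-- **The end for `γ = ± dl`.** -/
theorem end_dl (m : MData hp r q K₀) [IsSimpleGroup K₀] (hq : 3 ≤ q) (h3r : 3 ≠ r)
    {E : Subgroup ↥(chevE6.group (KK r))} {z : ↥(chevE6.group (KK r))}
    {γ : (Fin 6 → ℤ) ≃+ (Fin 6 → ℤ)} (F : NFrame m E z γ) {ε : ℤ} (hε : Eps 3 q ε)
    (hγ : ∀ x, γ x = ε • permE rho6 x)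
    (hS : ∀ a, R6 a → InS r 6 (MulAut.conj (z⁻¹ * m.σ z) * m.σ) (HZ m 3 E z) {a, -a, dl a, -dl a}) :
    GamY m.ι 3 E = ⊤ := by
  have hpr : Fact (Nat.Prime 3) := ⟨Nat.prime_three⟩
  have hfix : ∀ t ∈ TD hp r, (MulAut.conj (z⁻¹ * m.σ z) * m.σ) t = t := fun t ht =>
    fix_TD hp r (m.frob.conj_mul _) F.fr (by rw [m.hq]; exact hε) hγ ht
  have hfin := finite_frame m hfix
  have hG2 : chevE6 = chevG2 → 4 ≤ q := by
    intro h
    have h1 := congrArg ChevalleyDatum.nroots h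
    exact absurd h1 (by decide +kernel)
  refine end_general m hi_E6 hq hG2 h3r F (E' := TD hp r) (fun t ht => ht.1.1) (TD_el hp r) hfix ?_
    (Or.inl (not_dvd_sq (le_refl 3) hε)) ?_
  · obtain ⟨ζ, hζ, s, hs⟩ := exists_coordsD hp r h3r
    have h1 := orderOf_dvd_natCard (⟨s 1, (hs 1).1⟩ : ↥(TD hp r))
    have h2 : orderOf (⟨s 1, (hs 1).1⟩ : ↥(TD hp r)) = 3 := by
      refine orderOf_eq_prime (Subtype.ext (hs 1).1.1.2) fun h3 => ?_
      have h4 : s 1 = 1 := congrArg Subtype.val h3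
      have h5 := (hs 1).2 (sr 1)
      rw [h4, cX_one] at h5
      have h6 : ph (sr 1) 1 = 1 := by decide +kernel
      rw [h6, zpow_one] at h5
      rw [← h5] at hζ
      have h7 := hζ.eq_orderOf
      rw [orderOf_one] at h7
      omega
    rw [h2] at h1
    exact Nat.le_of_dvd Nat.card_pos h1
  · intro F' hF' hi u hu hτu hur
    by_cases hne : (S0 hp r F').Nonempty
    · obtain ⟨a, ha⟩ := hne
      refine hS a ((root_iff hp).1 ha.1) u (RGD.Sup_mono (fun b hb => ?_) hu) hτu hur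
      exact S0_dl hp r h3r hF' hi ha hb
    · rw [Set.not_nonempty_iff_eq_empty] at hne
      rw [hne, OppDec.Sup_empty, Subgroup.mem_bot] at hu
      rw [hu]
      exact one_mem _

end End

end Cfsg.Agent.H82.Mono
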